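import Cfsg.Agent.Lib.Blocks.BrauerFeit
import Cfsg.Agent.Lib.Blocks.DefectClass
import Cfsg.Agent.Lib.Blocks.BrauerInduce
import Cfsg.Agent.Lib.Blocks.PPart
import Cfsg.Agent.Lib.Chars.Misc

/-!
Characters of maximal `p`-degree over a central `p`-subgroup.
-/

namespace CfsgLib.Blocks

open scoped ComplexConjugate
open Cfsg CfsgLib.Chars

universe u

variable {G : Type u} [Group G] [Fintype G] {p : ℕ} {M : Ideal AlgInt}

theorem norm_mul_central (χ : IrrCharacter G) {z : G} (hz : z ∈ Subgroup.center G) (g : G) :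
    ‖(χ : G → ℂ) (z * g)‖ = ‖(χ : G → ℂ) g‖ := by
  have h0 : (0 : ℝ) < ‖(χ : G → ℂ) 1‖ := norm_pos_iff.mpr (irr_one_ne_zero χ)
  have h1 : ‖(χ : G → ℂ) z‖ = ‖(χ : G → ℂ) 1‖ := by
    have h := congrArg (‖·‖) (mul_central χ hz z⁻¹)
    simp only [mul_inv_cancel, norm_mul, IsCharacter.map_inv (isCharacter_irr χ),
      Complex.norm_conj] at h
    exact ((mul_self_inj h0.le (norm_nonneg _)).mp h).symm
  have h2 := congrArg (‖·‖) (mul_central χ hz g)
  simp only [norm_mul, h1] at h2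
  rw [mul_comm _ ‖(χ : G → ℂ) g‖] at h2
  exact mul_right_cancel₀ h0.ne' h2

open Classical in
/-- The squared norm on the regular elements. -/
noncomputable def regNormSq (p : ℕ) (f : G → ℂ) : ℝ :=
  ∑ g ∈ (Finset.univ.filter (fun g : G => ¬ p ∣ orderOf g) : Finset G), ‖f g‖ ^ 2

omit [Fintype G] in
theorem regular_translate_inj [Finite G] (hp : p.Prime) {D : Subgroup G} (hD : IsPGroup p D)
    (hDZ : D ≤ Subgroup.center G) {g g' d d' : G} (hg : ¬ p ∣ orderOf g) (hg' : ¬ p ∣ orderOf g')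
    (hd : d ∈ D) (hd' : d' ∈ D) (h : d * g = d' * g') : d = d' ∧ g = g' := by
  have key : ∀ (e w : G), e ∈ D → ¬ p ∣ orderOf w → IsPPart p (e * w) e := fun e w he hw => by
    obtain ⟨k, hk⟩ := hD ⟨e, he⟩
    obtain ⟨j, -, hj⟩ := (Nat.dvd_prime_pow hp).mp
      (orderOf_dvd_of_pow_eq_one (by simpa using congrArg Subtype.val hk : e ^ p ^ k = 1))
    exact ⟨w, rfl, (Subgroup.mem_center_iff.mp (hDZ he) w).symm, ⟨j, hj⟩, hw⟩
  have e1 : d = d' := isPPart_unique hp (key d g hd hg) (h ▸ key d' g' hd' hg')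
  exact ⟨e1, mul_left_cancel (e1 ▸ h)⟩

/-- The regular norm is bounded, with equality only for vanishing off the translates. -/
theorem card_mul_regNormSq_le (hM : IsPModular p M) {D : Subgroup G} (hD : IsPGroup p D)
    (hDZ : D ≤ Subgroup.center G) (φ : IrrCharacter G) :
    (Nat.card D : ℝ) * regNormSq p (φ : G → ℂ) ≤ (Nat.card G : ℝ) ∧
      ((Nat.card D : ℝ) * regNormSq p (φ : G → ℂ) = (Nat.card G : ℝ) →
        ∀ g x : G, IsPPart p g x → x ∉ D → (φ : G → ℂ) g = 0) := by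
  classical
  set S := ((Finset.univ.filter (fun d : G => d ∈ D)) ×ˢ
    (Finset.univ.filter (fun g : G => ¬ p ∣ orderOf g))).image (fun dg => dg.1 * dg.2) with hS
  have hsum : ∑ x ∈ S, ‖(φ : G → ℂ) x‖ ^ 2 = (Nat.card D : ℝ) * regNormSq p (φ : G → ℂ) := by
    rw [hS, Finset.sum_image, Finset.sum_product, regNormSq,
      Finset.sum_congr rfl (g := fun _ => regNormSq p (φ : G → ℂ)) fun d hd => ?_, Finset.sum_const,
      nsmul_eq_mul, Nat.card_eq_fintype_card, Fintype.card_subtype]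
    · rfl
    · exact Finset.sum_congr rfl fun g _ => by
        rw [norm_mul_central φ (hDZ (Finset.mem_filter.mp hd).2)]
    · rintro ⟨d, g⟩ h1 ⟨d', g'⟩ h2 he
      obtain ⟨h1a, h1b⟩ := Finset.mem_product.mp h1
      obtain ⟨h2a, h2b⟩ := Finset.mem_product.mp h2
      obtain ⟨e1, e2⟩ := regular_translate_inj hM.1 hD hDZ (Finset.mem_filter.mp h1b).2
        (Finset.mem_filter.mp h2b).2 (Finset.mem_filter.mp h1a).2 (Finset.mem_filter.mp h2a).2 he
      exact Prod.ext e1 e2
  have hall : ∑ x : G, ‖(φ : G → ℂ) x‖ ^ 2 = (Nat.card G : ℝ) := by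
    have h2 := classInner_irr φ φ
    rw [if_pos rfl, classInner, inv_mul_eq_one₀ (natCast_card_ne_zero G)] at h2
    simp only [Complex.mul_conj'] at h2
    exact_mod_cast h2.symm
  rw [← hsum, ← hall]
  refine ⟨Finset.sum_le_sum_of_subset_of_nonneg (Finset.subset_univ _) fun x _ _ => sq_nonneg _,
    fun he g x hx hxD => ?_⟩
  have hg : g ∉ S := by
    intro h
    obtain ⟨⟨d, w⟩, hdw, rfl⟩ := Finset.mem_image.mp h
    obtain ⟨hd, hw⟩ := Finset.mem_product.mp hdw
    have hd' := (Finset.mem_filter.mp hd).2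
    obtain ⟨k, hk⟩ := hD ⟨d, hd'⟩
    obtain ⟨j, -, hj⟩ := (Nat.dvd_prime_pow hM.1).mp
      (orderOf_dvd_of_pow_eq_one (by simpa using congrArg Subtype.val hk : d ^ p ^ k = 1))
    refine hxD ?_
    rw [isPPart_unique hM.1 hx ⟨w, rfl, (Subgroup.mem_center_iff.mp (hDZ hd') w).symm, ⟨j, hj⟩,
      (Finset.mem_filter.mp hw).2⟩]
    exact hd'
  by_contra hne
  have h1 : ∑ x ∈ insert g S, ‖(φ : G → ℂ) x‖ ^ 2 ≤ ∑ x : G, ‖(φ : G → ℂ) x‖ ^ 2 :=
    Finset.sum_le_sum_of_subset_of_nonneg (Finset.subset_univ _) fun x _ _ => sq_nonneg _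
  rw [Finset.sum_insert hg, ← he] at h1
  have : (0 : ℝ) < ‖(φ : G → ℂ) g‖ ^ 2 := pow_pos (norm_pos_iff.mpr hne) 2
  linarith

theorem regMat_self_mul (hp : p.Prime) (φ : IrrCharacter G) :
    (regMat hp φ φ : ℝ) * (Nat.card G : ℝ) =
      ((p ^ (Nat.card G).factorization p : ℕ) : ℝ) * regNormSq p (φ : G → ℂ) := by
  classical
  have h := regMat_spec hp φ φ
  rw [regInner_eq] at h
  simp only [Complex.mul_conj'] at h
  have e : ((regMat hp φ φ : ℝ) : ℂ) * ((Nat.card G : ℝ) : ℂ) =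
      (((p ^ (Nat.card G).factorization p : ℕ) : ℝ) : ℂ) * ((regNormSq p (φ : G → ℂ) : ℝ) : ℂ) := by
    rw [regNormSq, Complex.ofReal_intCast, ← h]
    push_cast
    field_simp [natCast_card_ne_zero G]
  exact_mod_cast e

/-- The bound on the diagonal entries. -/
theorem regMat_self_le (hM : IsPModular p M) {D : Subgroup G} (hD : IsPGroup p D)
    (hDZ : D ≤ Subgroup.center G) (φ : IrrCharacter G) :
    regMat hM.1 φ φ ≤ (p : ℤ) ^ D.index.factorization p ∧
      (regMat hM.1 φ φ = (p : ℤ) ^ D.index.factorization p →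
        ∀ g x : G, IsPPart p g x → x ∉ D → (φ : G → ℂ) g = 0) := by
  haveI : Fact p.Prime := ⟨hM.1⟩
  obtain ⟨h1, h2⟩ := card_mul_regNormSq_le hM hD hDZ φ
  have h3 := regMat_self_mul hM.1 φ
  obtain ⟨d, hd⟩ := IsPGroup.iff_card.mp hD
  have hfac : (Nat.card G).factorization p = D.index.factorization p + d := by
    rw [← D.index_mul_card, Nat.factorization_mul D.index_ne_zero_of_finite Nat.card_pos.ne',
      Finsupp.add_apply, hd, hM.1.factorization_pow, Finsupp.single_eq_same]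
  rw [hfac, pow_add, ← hd] at h3
  push_cast at h3
  have hG : (0 : ℝ) < (Nat.card G : ℝ) := Nat.cast_pos.mpr Nat.card_pos
  have hp0 : (0 : ℝ) < (p : ℝ) ^ D.index.factorization p := pow_pos (Nat.cast_pos.mpr hM.1.pos) _
  constructor
  · have : (regMat hM.1 φ φ : ℝ) ≤ (p : ℝ) ^ D.index.factorization p := by
      refine le_of_mul_le_mul_right ?_ hG
      rw [h3, mul_assoc]
      exact mul_le_mul_of_nonneg_left h1 hp0.le
    exact_mod_cast this
  · intro he
    refine h2 ?_
    rw [he] at h3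
    push_cast at h3
    rw [mul_assoc] at h3
    exact (mul_left_cancel₀ hp0.ne' h3).symm

/-- A character of maximal `p`-degree over `D` and any character linked to it agree up to sign
on the regular elements. -/
theorem linked_of_max (hM : IsPModular p M) {D : Subgroup G} (hD : IsPGroup p D)
    (hDZ : D ≤ Subgroup.center G) {χ φ : IrrCharacter G}
    (hdeg : (charDegree (χ : G → ℂ)).factorization p = D.index.factorization p)
    (hne : regMat hM.1 χ φ ≠ 0) :
    (regMat hM.1 χ χ = (p : ℤ) ^ D.index.factorization p) ∧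
      charDegree (φ : G → ℂ) = charDegree (χ : G → ℂ) ∧
      ∃ c : ℂ, ∀ g : G, pRegularPart p (φ : G → ℂ) g = c * pRegularPart p (χ : G → ℂ) g := by
  classical
  have hp := hM.1
  set P : ℤ := (p : ℤ) ^ D.index.factorization p with hP
  have hP0 : 0 < P := pow_pos (Int.natCast_pos.mpr hp.pos) _
  obtain ⟨q, hq⟩ := ppow_dvd_regMat hp χ χ
  obtain ⟨q', hq'⟩ := ppow_dvd_regMat hp χ φ
  rw [hdeg, ← hP] at hq hq'
  have hpos : (0 : ℝ) < (regMat hp χ χ : ℝ) := by
    have h := regMat_self_mul hp χ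
    have h1 : (0 : ℝ) < regNormSq p (χ : G → ℂ) := by
      refine Finset.sum_pos' (fun _ _ => sq_nonneg _) ⟨1, Finset.mem_filter.mpr
        ⟨Finset.mem_univ _, not_dvd_orderOf_one hM⟩, ?_⟩
      exact pow_pos (norm_pos_iff.mpr (irr_one_ne_zero χ)) 2
    have h2 : (0 : ℝ) < (regMat hp χ χ : ℝ) * (Nat.card G : ℝ) := by
      rw [h]; exact mul_pos (Nat.cast_pos.mpr (pow_pos hp.pos _)) h1
    exact pos_of_mul_pos_left h2 (Nat.cast_nonneg _)
  have hχ1 : regMat hp χ χ = P := by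
    have hle := (regMat_self_le hM hD hDZ χ).1
    have h0 : 0 < regMat hp χ χ := by exact_mod_cast hpos
    rw [hq, ← hP] at *
    nlinarith [show 0 < q from pos_of_mul_pos_right h0 hP0.le]
  refine ⟨hχ1, ?_⟩
  have hφ1 := (regMat_self_le hM hD hDZ φ).1
  rw [← hP] at hφ1
  -- the difference has nonpositive norm on the regular elements
  set s : ℝ := if 0 < q' then 1 else -1 with hs
  have hs2 : s * s = 1 := by rw [hs]; split_ifs <;> norm_num
  have hqs : (1 : ℝ) ≤ s * q' := by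
    have hq0 : q' ≠ 0 := fun h => hne (by rw [hq', h, mul_zero])
    rw [hs]
    split_ifs with h
    · rw [one_mul]; exact_mod_cast h
    · have : q' ≤ -1 := by omega
      have : (q' : ℝ) ≤ -1 := by exact_mod_cast this
      linarith
  have hcross : regSum p (fun g => (χ : G → ℂ) g * conj ((φ : G → ℂ) g)) *
      ((p ^ (Nat.card G).factorization p : ℕ) : ℂ) = (Nat.card G : ℂ) * (regMat hp χ φ : ℂ) := by
    rw [← regMat_spec, regInner_eq_regSum]
    field_simp [natCast_card_ne_zero G]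
  have hcross' : (∑ g ∈ (Finset.univ.filter (fun g : G => ¬ p ∣ orderOf g) : Finset G),
      ((χ : G → ℂ) g * conj ((φ : G → ℂ) g)).re) * ((p ^ (Nat.card G).factorization p : ℕ) : ℝ) =
      (Nat.card G : ℝ) * (regMat hp χ φ : ℝ) := by
    have h := congrArg Complex.re hcross
    rw [regSum, Complex.mul_re, Complex.natCast_re, Complex.natCast_im, mul_zero, sub_zero,
      Complex.re_sum, Complex.mul_re, Complex.natCast_re, Complex.natCast_im, zero_mul, sub_zero,
      Complex.intCast_re] at h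
    exact h
  have hA := regMat_self_mul hp χ
  have hB := regMat_self_mul hp φ
  have hterm : ∀ g : G, ‖(φ : G → ℂ) g - (s : ℂ) * (χ : G → ℂ) g‖ ^ 2 =
      ‖(φ : G → ℂ) g‖ ^ 2 + ‖(χ : G → ℂ) g‖ ^ 2 - 2 * s * ((χ : G → ℂ) g * conj ((φ : G → ℂ) g)).re := by
    intro g
    simp only [Complex.sq_norm, Complex.normSq_apply, Complex.sub_re, Complex.sub_im, Complex.mul_re,
      Complex.mul_im, Complex.ofReal_re, Complex.ofReal_im, Complex.conj_re, Complex.conj_im]
    nlinarith [hs2, sq_nonneg ((χ : G → ℂ) g).re]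
  have hzero : ∑ g ∈ (Finset.univ.filter (fun g : G => ¬ p ∣ orderOf g) : Finset G),
      ‖(φ : G → ℂ) g - (s : ℂ) * (χ : G → ℂ) g‖ ^ 2 = 0 := by
    refine le_antisymm ?_ (Finset.sum_nonneg fun _ _ => sq_nonneg _)
    simp only [hterm, Finset.sum_sub_distrib, Finset.sum_add_distrib, ← Finset.mul_sum]
    have hpa : (0 : ℝ) < ((p ^ (Nat.card G).factorization p : ℕ) : ℝ) :=
      Nat.cast_pos.mpr (pow_pos hp.pos _)
    refine nonpos_of_mul_nonpos_right ?_ hpa
    have e : ∀ c A B C : ℝ, c * (A + B - 2 * s * C) = c * A + c * B - 2 * s * (C * c) := fun c A B C => by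
      ring
    unfold regNormSq at hA hB
    rw [e, hcross', ← hB, ← hA, hχ1, hq']
    push_cast
    have hPR : (0 : ℝ) < (P : ℝ) := by exact_mod_cast hP0
    have hφR : (regMat hp φ φ : ℝ) ≤ (P : ℝ) := by exact_mod_cast hφ1
    have hG : (0 : ℝ) < (Nat.card G : ℝ) := Nat.cast_pos.mpr Nat.card_pos
    nlinarith [mul_le_mul_of_nonneg_right hφR hG.le,
      mul_le_mul_of_nonneg_left hqs (mul_nonneg hG.le hPR.le)]
  rw [Finset.sum_eq_zero_iff_of_nonneg (fun _ _ => sq_nonneg _)] at hzero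
  have heq : ∀ g : G, ¬ p ∣ orderOf g → (φ : G → ℂ) g = (s : ℂ) * (χ : G → ℂ) g := fun g hg => by
    have := hzero g (Finset.mem_filter.mpr ⟨Finset.mem_univ _, hg⟩)
    rwa [pow_eq_zero_iff two_ne_zero, norm_eq_zero, sub_eq_zero] at this
  refine ⟨?_, (s : ℂ), fun g => ?_⟩
  · have h := congrArg (‖·‖) (heq 1 (not_dvd_orderOf_one hM))
    simp only [norm_mul, irr_apply_one, Complex.norm_natCast, Complex.norm_real] at h
    have hsn : ‖s‖ = 1 := by rw [hs]; split_ifs <;> norm_num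
    rw [hsn, one_mul] at h
    exact_mod_cast h
  · by_cases hg : p ∣ orderOf g
    · rw [pRegularPart_of_singular hg, pRegularPart_of_singular hg, mul_zero]
    · rw [pRegularPart_of_regular hg, pRegularPart_of_regular hg, heq g hg]

end CfsgLib.Blocks
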