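import Cfsg.Agent.Lib.Chars.Linear
import Cfsg.Agent.Lib.Chars.Misc
import Cfsg.Agent.Lib.Chars.Clifford
import Cfsg.Agent.Lib.Chars.Kernel
import Cfsg.Agent.Lib.GroupB.Coprime
import Cfsg.Agent.Lib.Blocks.Core
import Mathlib.GroupTheory.Nilpotent

/-!
Characters of small degree when a `p`-group acts with equal fixed points on a `p'`-group.
-/

set_option linter.style.haveILetI false

namespace CfsgLib.Blocks.CFree

open scoped ComplexConjugate commutatorElement
open Cfsg CfsgLib.Chars CfsgLib.Blocks

universe u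

/-- An irreducible character with the commutators in its kernel is linear. -/
theorem apply_one_of_comm {Q : Type u} [Group Q] [Fintype Q] (η : IrrCharacter Q)
    (h : ∀ z ∈ commutator Q, (η : Q → ℂ) z = (η : Q → ℂ) 1) : (η : Q → ℂ) 1 = 1 := by
  classical
  have hη := isCharacter_irr η
  obtain ⟨K, -, hK, hKmul⟩ := IsCharacter.exists_kernel hη
  have h1 := irr_one_ne_zero η
  have hmul : ∀ a b : Q, (η : Q → ℂ) b * (η : Q → ℂ) a = (η : Q → ℂ) 1 * (η : Q → ℂ) (b * a) := by
    intro a b
    have hs := sum_classFunction_mul η (classInd_isClassFunction b) a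
    rw [omega_classInd (IsCharacter.isClassFunction hη), centralChar] at hs
    have e : ∀ y : Q, classInd b y * (η : Q → ℂ) (y * a) = classInd b y * (η : Q → ℂ) (b * a) := by
      intro y
      simp only [classInd]
      split_ifs with hy
      · obtain ⟨x, rfl⟩ := isConj_iff.mp hy
        have hk : x * b * x⁻¹ * b⁻¹ ∈ K := (hK _).mpr (h _ (by
          rw [commutator_def]
          exact Subgroup.commutator_mem_commutator (Subgroup.mem_top x) (Subgroup.mem_top b)))
        rw [show x * b * x⁻¹ * a = x * b * x⁻¹ * b⁻¹ * (b * a) by group, hKmul _ hk]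
      · simp
    have hcount : ∑ y : Q, classInd b y = ((Subgroup.centralizer ({b} : Set Q)).index : ℂ) := by
      simp [classInd, Finset.sum_ite, ← card_isConj_eq_index, Fintype.card_subtype]
    rw [Finset.sum_congr rfl fun y _ => e y, ← Finset.sum_mul, hcount] at hs
    have hi : ((Subgroup.centralizer ({b} : Set Q)).index : ℂ) ≠ 0 :=
      Nat.cast_ne_zero.mpr Subgroup.index_ne_zero_of_finite
    field_simp at hs
    first
      | linear_combination -hs
      | linear_combination hs
      | linear_combination -(η : Q → ℂ) 1 * hs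
  have hn : (η : Q → ℂ) 1 * (η : Q → ℂ) 1 = 1 := by
    have hr := classInner_irr η η
    rw [if_pos rfl, classInner] at hr
    have e : ∀ a : Q, (η : Q → ℂ) a * conj ((η : Q → ℂ) a) = (η : Q → ℂ) 1 * (η : Q → ℂ) 1 := by
      intro a
      rw [← IsCharacter.map_inv hη, hmul, mul_inv_cancel]
    simp only [e, Finset.sum_const, Finset.card_univ, nsmul_eq_mul, ← Nat.card_eq_fintype_card] at hr
    rwa [← mul_assoc, inv_mul_cancel₀ (natCast_card_ne_zero Q), one_mul] at hr
  rw [irr_apply_one] at hn ⊢
  have : charDegree (η : Q → ℂ) * charDegree (η : Q → ℂ) = 1 := by exact_mod_cast hn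
  rw [Nat.eq_one_of_mul_eq_one_right this, Nat.cast_one]

/-- A nonlinear irreducible character with `Q' ≤ Z(Q)` times its conjugate has a nontrivial
linear constituent. -/
theorem exists_linear_constituent {Q : Type u} [Group Q] [Fintype Q]
    (hQ : commutator Q ≤ Subgroup.center Q) (θ : IrrCharacter Q) (hθ : (θ : Q → ℂ) 1 ≠ 1) :
    ∃ lam : Q →* ℂˣ, lam ≠ 1 ∧
      classInner (fun q => (θ : Q → ℂ) q * conj ((θ : Q → ℂ) q)) (fun q => (lam q : ℂ)) ≠ 0 := by
  classical
  by_contra hno
  push Not at hno
  set g : Q → ℂ := fun q => (θ : Q → ℂ) q * conj ((θ : Q → ℂ) q)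
  have hcl := IsCharacter.isClassFunction (isCharacter_irr θ)
  have hg : IsClassFunction Q g := fun x h => by simp only [g]; rw [hcl x h]
  have hz : ∀ z ∈ commutator Q, ∀ q, g (z * q) = g q := by
    intro z hz q
    have h1 := irr_one_ne_zero θ
    have e1 := mul_central θ (hQ hz) q
    have e2 := mul_central θ (hQ hz) z⁻¹
    rw [mul_inv_cancel, IsCharacter.map_inv (isCharacter_irr θ)] at e2
    have e3 := congrArg conj e1
    simp only [map_mul, conj_irr_one] at e3
    simp only [g]
    apply mul_right_cancel₀ (mul_ne_zero h1 h1)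
    linear_combination (θ : Q → ℂ) 1 * conj ((θ : Q → ℂ) (z * q)) * e1 +
      (θ : Q → ℂ) z * (θ : Q → ℂ) q * e3 - (θ : Q → ℂ) q * conj ((θ : Q → ℂ) q) * e2
  have hexp : ∀ x, g x = classInner g (trivIrr Q : Q → ℂ) := by
    intro x
    rw [classFunction_expand hg x, Finset.sum_eq_single (trivIrr Q)]
    · simp [trivIrr]
    · intro η _ hne
      suffices h0 : classInner g (η : Q → ℂ) = 0 by rw [h0, zero_mul]
      by_contra h0
      by_cases hη1 : (η : Q → ℂ) 1 = 1
      · obtain ⟨lam, hlam⟩ := IsCharacter.exists_hom (isCharacter_irr η) hη1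
        refine h0 ?_
        rw [hlam]
        refine hno lam fun e => hne (Subtype.ext ?_)
        rw [hlam, e]
        simp [trivIrr]
      · refine hη1 (apply_one_of_comm η fun z hz' => ?_)
        have e : classInner g (η : Q → ℂ) * conj ((η : Q → ℂ) 1) =
            conj ((η : Q → ℂ) z) * classInner g (η : Q → ℂ) := by
          rw [classInner]
          conv_lhs => rw [← Equiv.sum_comp (Equiv.mulLeft z)]
          rw [mul_left_comm (conj _), mul_assoc, Finset.mul_sum, Finset.sum_mul]
          congr 1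
          refine Finset.sum_congr rfl fun q _ => ?_
          simp only [Equiv.coe_mulLeft, hz z hz' q]
          have e1 := congrArg conj (mul_central η (hQ hz') q)
          simp only [map_mul] at e1
          linear_combination g q * e1
        have h2 : conj ((η : Q → ℂ) z) = conj ((η : Q → ℂ) 1) :=
          mul_left_cancel₀ h0 (by rw [e]; ring)
        exact star_injective h2
    · simp
  have h1 : classInner g (trivIrr Q : Q → ℂ) = 1 := by
    have := classInner_irr θ θ
    rw [if_pos rfl] at this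
    rw [← this]
    simp [classInner, g, trivIrr]
  have h2 := hexp 1
  rw [h1] at h2
  simp only [g, conj_irr_one] at h2
  simp only [irr_apply_one] at h2 hθ
  have : charDegree (θ : Q → ℂ) * charDegree (θ : Q → ℂ) = 1 := by exact_mod_cast h2
  rw [Nat.eq_one_of_mul_eq_one_right this, Nat.cast_one] at hθ
  exact hθ rfl

variable {G : Type u} [Group G] [Fintype G] {p : ℕ} [Fact p.Prime]

/-- A linear character with a regular orbit bounds the degree. -/
theorem orbit_bound {P Q : Subgroup G} [Fintype P] [Fintype Q] {F : G → ℂ} (hF : IsCharacter G F)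
    (φ : P → (Q →* Q)) (hφG : ∀ (a : P) (q : Q), ((φ a q : Q) : G) = (a : G) * q * (a : G)⁻¹)
    (hφ : ∀ a b : P, ∀ q, φ a (φ b q) = φ (a * b) q) (lam : Q →* ℂˣ) (hlam : lam ≠ 1)
    (hne : classInner (fun q : Q => F q) (fun q => (lam q : ℂ)) ≠ 0)
    (hfree : ∀ x : P, x ≠ 1 → lam.comp (φ x) ≠ lam) :
    ∃ t : ℕ, classInner (fun q : Q => F q) (trivIrr Q : Q → ℂ) = (t : ℂ) ∧
      t + Nat.card P ≤ charDegree F := by
  classical
  have hφ1 : ∀ q, φ 1 q = q := fun q => Subtype.ext (by simp [hφG])
  have hFQ := IsCharacter.restrict hF Q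
  choose m hm using fun η : IrrCharacter Q => exists_mult hFQ η
  set ι : P → IrrCharacter Q := fun a => homIrr (lam.comp (φ a))
  have hιinj : Function.Injective ι := by
    intro a b hab
    by_contra hne'
    refine hfree (b * a⁻¹) (fun e => hne' (mul_inv_eq_one.mp e).symm) ?_
    have h2 := homIrr_injective hab
    ext q
    have h3 := DFunLike.congr_fun h2 (φ a⁻¹ q)
    simp only [MonoidHom.comp_apply, hφ, mul_inv_cancel, hφ1] at h3
    simp only [MonoidHom.comp_apply]
    rw [← h3]
  have hιm : ∀ a, 1 ≤ m (ι a) := by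
    intro a
    refine Nat.one_le_iff_ne_zero.mpr fun h0 => hne ?_
    have h1 := hm (ι a)
    rw [h0, Nat.cast_zero] at h1
    have hinj : Function.Injective (φ a) := fun q q' h => by
      have := congrArg (fun z => φ a⁻¹ z) h
      simpa [hφ, hφ1] using this
    have e : ∑ q : Q, F q * conj (lam q : ℂ) = ∑ q : Q, F q * conj (lam (φ a q) : ℂ) := by
      symm
      refine Fintype.sum_bijective (φ a) ⟨hinj, Finite.surjective_of_injective hinj⟩ _ _ fun q => ?_
      rw [hφG, IsCharacter.isClassFunction hF (q : G) (a : G)]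
    refine Eq.trans ?_ h1
    simp only [classInner]
    rw [e]
    rfl
  have hι1 : ∀ a, ι a ≠ trivIrr Q := by
    intro a e
    apply hlam
    ext q
    have := congrFun (congrArg Subtype.val e) (φ a⁻¹ q)
    simp only [ι, homIrr, trivIrr, MonoidHom.comp_apply, hφ, mul_inv_cancel, hφ1] at this
    simpa using this
  refine ⟨m (trivIrr Q), hm _, ?_⟩
  have hF1 : F 1 = (charDegree F : ℂ) := by
    obtain ⟨n, ρ, rfl⟩ := hF
    simp [charDegree, Representation.char_one]
  have hdegF : (charDegree F : ℂ) =
      ((∑ η : IrrCharacter Q, m η * charDegree (η : Q → ℂ) : ℕ) : ℂ) := by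
    have := classFunction_expand (IsCharacter.isClassFunction hFQ) (1 : Q)
    simp only [hm, irr_apply_one] at this
    rw [OneMemClass.coe_one, hF1] at this
    push_cast
    exact this
  rw [Nat.cast_inj] at hdegF
  rw [hdegF]
  have e : m (trivIrr Q) + ∑ a : P, m (ι a) * charDegree (ι a : Q → ℂ) =
      ∑ η ∈ insert (trivIrr Q) (Finset.univ.image ι), m η * charDegree (η : Q → ℂ) := by
    rw [Finset.sum_insert (by
      simp only [Finset.mem_image, Finset.mem_univ, true_and, not_exists]; exact hι1),
      Finset.sum_image fun a _ b _ h => hιinj h]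
    simp [charDegree, trivIrr]
  refine le_trans ?_ (e.le.trans (Finset.sum_le_sum_of_subset (Finset.subset_univ _)))
  refine Nat.add_le_add_left ?_ _
  rw [Nat.card_eq_fintype_card, Fintype.card_eq_sum_ones]
  refine Finset.sum_le_sum fun a _ => ?_
  rw [charDegree_hom, mul_one]
  exact hιm a

/-- A `p'`-group on which all nontrivial elements of `P` have the same fixed points is centralized
by `P`, when a faithful character has small degree. -/
theorem centralized (P K : Subgroup G) (hP : IsPGroup p P) (hP1 : P ≠ ⊥)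
    (hPK : P ≤ Subgroup.normalizer (K : Set G)) (hK : (Nat.card P).Coprime (Nat.card K))
    (hfix : ∀ x ∈ P, x ≠ 1 → ∀ k ∈ K, Commute x k → k ∈ Subgroup.centralizer (P : Set G))
    (χ : G → ℂ) (hχ : IsCharacter G χ) (hfaith : ∀ g : G, χ g = χ 1 → g = 1)
    (hdeg : charDegree χ ^ 2 ≤ Nat.card P) : K ≤ Subgroup.centralizer (P : Set G) := by
  classical
  by_contra hKP
  have hsol : ∀ L : Subgroup G, Group.IsSolvable L ∨ Group.IsSolvable P := fun L =>
    Or.inr (by haveI := hP.isNilpotent; infer_instance)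
  -- minimal counterexample inside `K`
  obtain ⟨Q, ⟨hQK, hPQ, hQnc⟩, hmin⟩ := Set.Finite.exists_minimalFor (fun L : Subgroup G => Nat.card L)
    {L : Subgroup G | L ≤ K ∧ P ≤ Subgroup.normalizer (L : Set G) ∧
      ¬ L ≤ Subgroup.centralizer (P : Set G)} (Set.toFinite _) ⟨K, le_rfl, hPK, hKP⟩
  have hproper : ∀ L : Subgroup G, L ≤ Q → P ≤ Subgroup.normalizer (L : Set G) → L ≠ Q →
      L ≤ Subgroup.centralizer (P : Set G) := by
    intro L hL hPL hne
    by_contra hc
    exact hne (Subgroup.eq_of_le_of_card_ge hL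
      (hmin ⟨hL.trans hQK, hPL, hc⟩ (Subgroup.card_le_of_le hL)))
  have hcop : (Nat.card P).Coprime (Nat.card Q) := hK.coprime_dvd_right (Subgroup.card_dvd_of_le hQK)
  -- it is an `r`-group
  obtain ⟨r, hr, hQr⟩ : ∃ r : ℕ, r.Prime ∧ IsPGroup r Q := by
    by_contra hno
    push Not at hno
    refine hQnc ?_
    have hdvd : Nat.card Q ∣ Nat.card (Q ⊓ Subgroup.centralizer (P : Set G) : Subgroup G) := by
      rw [← Nat.factorization_le_iff_dvd Nat.card_pos.ne' Nat.card_pos.ne']
      intro r
      by_cases hr : r.Prime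
      · haveI : Fact r.Prime := ⟨hr⟩
        obtain ⟨S, hS, hPS⟩ := (CfsgLib.GroupB.Coprime.invariant_sylow hPQ hcop (hsol Q) r).1
        have hne : S ≠ Q := fun e => hno r hr (e ▸ hS.isPGroup)
        have hle : S ≤ Q ⊓ Subgroup.centralizer (P : Set G) := le_inf hS.1 (hproper S hS.1 hPS hne)
        have h1 := Subgroup.card_dvd_of_le hle
        rw [hS.2] at h1
        exact (hr.pow_dvd_iff_le_factorization Nat.card_pos.ne').mp h1
      · simp [Nat.factorization_eq_zero_of_not_prime _ hr]
    have := Subgroup.eq_of_le_of_card_ge inf_le_left (Nat.le_of_dvd Nat.card_pos hdvd)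
    exact this ▸ inf_le_right
  haveI : Fact r.Prime := ⟨hr⟩
  have hcj : ∀ (L : Subgroup G), P ≤ Subgroup.normalizer (L : Set G) → ∀ a ∈ P, ∀ x ∈ L,
      a * x * a⁻¹ ∈ L := fun L hL a ha x hx => (Subgroup.mem_normalizer_iff.mp (hL ha) x).mp hx
  -- the derived subgroup
  set D := ⁅Q, Q⁆ with hD
  have hDQ : D ≤ Q := by
    rw [hD, Subgroup.commutator_le]
    intro a ha b hb
    exact Q.mul_mem (Q.mul_mem (Q.mul_mem ha hb) (Q.inv_mem ha)) (Q.inv_mem hb)
  have hPD : P ≤ Subgroup.normalizer (D : Set G) := by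
    refine CfsgLib.GroupB.Coprime.le_normalizer_of_conj_mem fun a ha x hx => ?_
    suffices h : D ≤ D.comap (MulAut.conj a).toMonoidHom from h hx
    rw [hD, Subgroup.commutator_le]
    intro b hb c hc
    show a * ⁅b, c⁆ * a⁻¹ ∈ ⁅Q, Q⁆
    rw [show a * ⁅b, c⁆ * a⁻¹ = ⁅a * b * a⁻¹, a * c * a⁻¹⁆ by
      simp only [commutatorElement_def]; group]
    exact Subgroup.commutator_mem_commutator (hcj Q hPQ a ha b hb) (hcj Q hPQ a ha c hc)
  have hDne : D ≠ Q := by
    intro e
    haveI : Group.IsSolvable Q := by haveI := hQr.isNilpotent; infer_instance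
    have htop : commutator Q = ⊤ := by
      refine Subgroup.map_injective Q.subtype_injective ?_
      rw [Q.map_subtype_commutator, ← hD, e, ← MonoidHom.range_eq_map, Subgroup.range_subtype]
    haveI : Nontrivial Q := by
      rw [Subgroup.nontrivial_iff_ne_bot]
      rintro rfl
      exact hQnc bot_le
    exact (Group.IsSolvable.commutator_lt_top_of_nontrivial Q).ne htop
  have hDP : D ≤ Subgroup.centralizer (P : Set G) := hproper D hDQ hPD hDne
  -- commutators with `P` generate
  have hQP : ⁅Q, P⁆ = Q := by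
    by_contra hne
    refine hQnc (CfsgLib.GroupB.Coprime.le_centralizer_of_commutator_commutator hPQ hcop (hsol Q) ?_)
    exact Subgroup.commutator_eq_bot_iff_le_centralizer.mpr (hproper _
      (CfsgLib.GroupB.Coprime.commutator_le_of_le_normalizer hPQ)
      (le_sup_right.trans (CfsgLib.GroupB.Coprime.le_normalizer_commutator Q P)) hne)
  have hDz : ∀ c ∈ D, ∀ y ∈ Q, c * y = y * c := by
    intro c hc
    suffices h : Q ≤ Subgroup.centralizer ({c} : Set G) by
      intro y hy
      exact (Subgroup.mem_centralizer_singleton_iff.mp (h hy)).symm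
    conv_lhs => rw [← hQP]
    rw [Subgroup.commutator_le]
    intro y hy a ha
    have hcD : y⁻¹ * c * y ∈ D := by
      have hm : c⁻¹ * (y⁻¹ * c * y) ∈ D := by
        rw [show c⁻¹ * (y⁻¹ * c * y) = ⁅c⁻¹, y⁻¹⁆ by simp only [commutatorElement_def]; group]
        exact Subgroup.commutator_mem_commutator (Q.inv_mem (hDQ hc)) (Q.inv_mem hy)
      have := D.mul_mem hc hm
      simpa using this
    have h1 : a * c = c * a := Subgroup.mem_centralizer_iff.mp (hDP hc) a ha
    have h2 : a * (y⁻¹ * c * y) = y⁻¹ * c * y * a := Subgroup.mem_centralizer_iff.mp (hDP hcD) a ha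
    have e1 : a * (y⁻¹ * c * y) * a⁻¹ = y⁻¹ * c * y := by rw [h2]; group
    have e2 : a⁻¹ * c * a = c := by rw [mul_assoc, ← h1]; group
    rw [Subgroup.mem_centralizer_singleton_iff, commutatorElement_def]
    calc y * a * y⁻¹ * a⁻¹ * c = y * a * y⁻¹ * (a⁻¹ * c * a) * a⁻¹ := by group
      _ = y * (a * (y⁻¹ * c * y) * a⁻¹) * (a * y⁻¹ * a⁻¹) := by rw [e2]; group
      _ = c * (y * a * y⁻¹ * a⁻¹) := by rw [e1]; group
  haveI : Fintype Q := Fintype.ofFinite _
  haveI : Fintype P := Fintype.ofFinite _
  have hQc : commutator Q ≤ Subgroup.center Q := by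
    intro z hz
    rw [Subgroup.mem_center_iff]
    intro y
    have : (z : G) ∈ D := by
      rw [hD, ← Q.map_subtype_commutator]
      exact Subgroup.mem_map_of_mem Q.subtype hz
    exact Subtype.ext (hDz _ this y y.2).symm
  let φ : P → (Q →* Q) := fun a =>
    { toFun := fun q => ⟨(a : G) * q * (a : G)⁻¹, hcj Q hPQ a a.2 q q.2⟩
      map_one' := Subtype.ext (by simp)
      map_mul' := fun q q' => Subtype.ext (by simp) }
  have hφ : ∀ a b : P, ∀ q, φ a (φ b q) = φ (a * b) q := fun a b q => Subtype.ext (by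
    simp [φ]; group)
  -- nontrivial linear characters have regular orbits
  have hfree : ∀ (lam : Q →* ℂˣ) (x : P), x ≠ 1 → lam.comp (φ x) = lam → lam = 1 := by
    intro lam x hx1 hx
    have hker : ∀ z ∈ commutator Q, lam z = 1 := fun z hz =>
      Abelianization.commutator_subset_ker lam hz
    let μ : Q →* ℂˣ := ∏ a : P, lam.comp (φ a)
    have hμb : ∀ (b : P) q, μ (φ b q) = μ q := by
      intro b q
      simp only [μ, MonoidHom.finsetProd_apply, MonoidHom.comp_apply, hφ]
      exact Fintype.prod_equiv (Equiv.mulRight b) _ _ fun a => rfl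
    have hμ1 : ∀ q, μ q = 1 := by
      have hle : Q ≤ μ.ker.map Q.subtype := by
        conv_lhs => rw [← hQP]
        rw [Subgroup.commutator_le]
        intro y hy b hb
        refine ⟨⟨y, hy⟩ * φ ⟨b, hb⟩ (⟨y, hy⟩ : Q)⁻¹, ?_, ?_⟩
        · rw [SetLike.mem_coe, MonoidHom.mem_ker, map_mul, hμb, map_inv, mul_inv_cancel]
        · simp [φ, commutatorElement_def]; group
      intro q
      obtain ⟨q', hq', he⟩ := hle q.2
      rw [← MonoidHom.mem_ker, ← show q' = q from Subtype.ext he]
      exact hq'
    have hcent : ∀ c : Q, (c : G) ∈ Subgroup.centralizer (P : Set G) → lam c = 1 := by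
      intro c hc
      have h := hμ1 c
      simp only [μ, MonoidHom.finsetProd_apply, MonoidHom.comp_apply] at h
      rw [Finset.prod_eq_pow_card (b := lam c), Finset.card_univ, ← Nat.card_eq_fintype_card] at h
      · have h2 : lam c ^ Nat.card Q = 1 := by rw [← map_pow, pow_card_eq_one', map_one]
        rw [← orderOf_eq_one_iff]
        exact Nat.eq_one_of_dvd_coprimes hcop (orderOf_dvd_of_pow_eq_one h)
          (orderOf_dvd_of_pow_eq_one h2)
      · intro a _
        refine congrArg lam (Subtype.ext ?_)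
        show (a : G) * c * (a : G)⁻¹ = c
        rw [Subgroup.mem_centralizer_iff.mp hc _ a.2]; group
    have hxn : ∀ (n : ℕ) q, lam (φ (x ^ n) q) = lam q := by
      intro n
      induction n with
      | zero => intro q; congr 1; exact Subtype.ext (by simp [φ])
      | succ n ih =>
        intro q
        rw [pow_succ, ← hφ, ih, ← MonoidHom.comp_apply, hx]
    ext q
    have hw : ∀ n : ℕ, ∃ w : Q, ((q : G) * (x : G)) ^ n = (w : G) * (x : G) ^ n ∧ lam w = lam q ^ n := by
      intro n
      induction n with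
      | zero => exact ⟨1, by simp, by simp⟩
      | succ n ih =>
        obtain ⟨w, hw, hlw⟩ := ih
        refine ⟨w * φ (x ^ n) q, ?_, ?_⟩
        · rw [pow_succ, hw, Subgroup.coe_mul]
          simp only [φ, MonoidHom.coe_mk, OneHom.coe_mk, SubgroupClass.coe_pow, pow_succ]
          group
        · rw [map_mul, hlw, hxn, pow_succ]
    obtain ⟨w, hw, hlw⟩ := hw (orderOf x)
    have hxo : (x : G) ^ orderOf x = 1 := by
      rw [← SubgroupClass.coe_pow, pow_orderOf_eq_one, OneMemClass.coe_one]
    rw [hxo, mul_one] at hw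
    have hcomm : ((q : G) * x) * (w : G) = (w : G) * ((q : G) * x) := by
      rw [← hw]; exact (Commute.self_pow _ _).eq
    -- `w` is fixed modulo the derived subgroup
    set A := Subgroup.zpowers (x : G)
    have hAP : A ≤ P := Subgroup.zpowers_le.mpr x.2
    have hstep : (w : G)⁻¹ * x * (w : G) * (x : G)⁻¹ ∈ D := by
      have e : (x : G) * w * (x : G)⁻¹ = (q : G)⁻¹ * w * q := by
        calc (x : G) * w * (x : G)⁻¹ = (q : G)⁻¹ * (((q : G) * x) * w) * (x : G)⁻¹ := by group
          _ = _ := by rw [hcomm]; group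
      rw [show (w : G)⁻¹ * x * w * (x : G)⁻¹ = (w : G)⁻¹ * ((x : G) * w * (x : G)⁻¹) by group, e,
        show (w : G)⁻¹ * ((q : G)⁻¹ * w * q) = ⁅(w : G)⁻¹, (q : G)⁻¹⁆ by
          simp only [commutatorElement_def]; group]
      exact Subgroup.commutator_mem_commutator (Q.inv_mem w.2) (Q.inv_mem q.2)
    have hmodA : ∀ a ∈ A, (w : G)⁻¹ * a * (w : G) * a⁻¹ ∈ D := by
      intro a ha
      obtain ⟨n, rfl⟩ := mem_powers_iff_mem_zpowers.mpr ha
      dsimp only
      induction n with
      | zero => simp
      | succ n ih =>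
        have e : (w : G)⁻¹ * (x : G) ^ (n + 1) * w * ((x : G) ^ (n + 1))⁻¹ =
            ((w : G)⁻¹ * x * w * (x : G)⁻¹) *
              ((x : G) * ((w : G)⁻¹ * (x : G) ^ n * w * ((x : G) ^ n)⁻¹) * (x : G)⁻¹) := by
          rw [pow_succ']; group
        rw [e]
        exact D.mul_mem hstep (hcj D hPD x x.2 _ (ih (pow_mem (Subgroup.mem_zpowers _) n)))
    have hcopA : (Nat.card A).Coprime (Nat.card Q) :=
      hcop.coprime_dvd_left (Subgroup.card_dvd_of_le hAP)
    obtain ⟨c, ⟨hcQ, hcA⟩, hcw⟩ := CfsgLib.GroupB.Coprime.exists_fixed_of_coset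
      (hAP.trans hPD) (hcopA.coprime_dvd_right (Subgroup.card_dvd_of_le hDQ))
      (Or.inr (by infer_instance)) (hAP.trans hPQ) hcopA hDQ w.2 hmodA
    have hcP : c ∈ Subgroup.centralizer (P : Set G) := hfix x x.2
      (fun e => hx1 (Subtype.ext e)) c (hQK hcQ)
      (Subgroup.mem_centralizer_iff.mp hcA _ (Subgroup.mem_zpowers _))
    have hzc : lam (w⁻¹ * ⟨c, hcQ⟩) = 1 := by
      refine hker _ ?_
      obtain ⟨z, hz, hze⟩ : (w : G)⁻¹ * c ∈ (commutator Q).map Q.subtype := by
        rw [Q.map_subtype_commutator, ← hD]; exact hcw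
      rwa [← show z = w⁻¹ * ⟨c, hcQ⟩ from Subtype.ext hze]
    rw [map_mul, hcent (⟨c, hcQ⟩ : Q) hcP, mul_one, map_inv, inv_eq_one, hlw] at hzc
    have hd1 : orderOf (lam q) ∣ Nat.card P := by
      refine (orderOf_dvd_of_pow_eq_one hzc).trans ?_
      exact orderOf_dvd_natCard x
    have hd2 : orderOf (lam q) ∣ Nat.card Q := (orderOf_map_dvd lam q).trans (orderOf_dvd_natCard q)
    rw [orderOf_eq_one_iff.mp (Nat.eq_one_of_dvd_coprimes hcop hd1 hd2)]
    rfl
  -- characters of `G` see whole orbits
  have horb : ∀ (F : G → ℂ), IsCharacter G F → ∀ lam : Q →* ℂˣ, lam ≠ 1 →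
      classInner (fun q : Q => F q) (fun q => (lam q : ℂ)) ≠ 0 →
      ∃ t : ℕ, classInner (fun q : Q => F q) (trivIrr Q : Q → ℂ) = (t : ℂ) ∧
        t + Nat.card P ≤ charDegree F := fun F hF lam hlam hne =>
    orbit_bound hF φ (fun a q => rfl) hφ lam hlam hne (fun x hx hc => hlam (hfree lam x hx hc))
  -- constituents of `χ` on `Q`
  set d := charDegree χ
  have hP2 : 2 ≤ Nat.card P := by
    have := (Subgroup.one_lt_card_iff_ne_bot P).mpr hP1
    omega
  have hχQ := IsCharacter.restrict hχ Q
  choose m hm using fun η : IrrCharacter Q => exists_mult hχQ η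
  obtain ⟨θ, hθm, hθ⟩ : ∃ θ : IrrCharacter Q, m θ ≠ 0 ∧ θ ≠ trivIrr Q := by
    by_contra hno
    push Not at hno
    refine hQnc fun q hq => ?_
    have hconst : ∀ q : Q, χ (q : G) = (m (trivIrr Q) : ℂ) := by
      intro q
      have e := classFunction_expand (IsCharacter.isClassFunction hχQ) q
      simp only [hm] at e
      rw [e, Finset.sum_eq_single (trivIrr Q) (fun η _ hη => by
        by_cases h0 : m η = 0
        · simp [h0]
        · exact absurd (hno η h0) hη) (by simp)]
      simp [trivIrr]
    have h1 := hconst ⟨q, hq⟩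
    have h2 := hconst 1
    rw [OneMemClass.coe_one] at h2
    rw [hfaith q (h1.trans h2.symm)]
    exact one_mem _
  by_cases hθ1 : (θ : Q → ℂ) 1 = 1
  · obtain ⟨lam, hlam⟩ := IsCharacter.exists_hom (isCharacter_irr θ) hθ1
    have hne : lam ≠ 1 := fun e => hθ (Subtype.ext (by rw [hlam, e]; simp [trivIrr]))
    obtain ⟨t, -, hle⟩ := horb χ hχ lam hne (by
      rw [← hlam, hm θ]; exact Nat.cast_ne_zero.mpr hθm)
    nlinarith
  · obtain ⟨lam, hne, hlam⟩ := exists_linear_constituent hQc θ hθ1
    set F : G → ℂ := fun g => χ g * conj (χ g)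
    have hFc : IsCharacter G F := by
      obtain ⟨n, ρ, rfl⟩ := hχ
      refine IsCharacter.mul ⟨n, ρ, rfl⟩ ?_
      rw [show (fun g => conj (ρ.character g)) = fun g => ρ.character g⁻¹ from funext fun g =>
        (IsCharacter.map_inv ⟨n, ρ, rfl⟩ g).symm]
      simp_rw [← Representation.char_dual ρ]
      exact isCharacter_character _
    have hχ1 : χ 1 = (d : ℂ) := by
      obtain ⟨n, ρ, rfl⟩ := hχ
      simp [d, charDegree, Representation.char_one]
    have hF1 : charDegree F = d * d := by
      have e : F 1 = ((d * d : ℕ) : ℂ) := by simp only [F, hχ1, map_natCast]; push_cast; ring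
      rw [charDegree, e, Complex.natCast_re, Nat.floor_natCast]
    -- the inner products with products of constituents
    have hsum : ∀ (η : Q → ℂ), classInner (fun q : Q => F q) η =
        ∑ a : IrrCharacter Q, ∑ b : IrrCharacter Q, ((m a * m b : ℕ) : ℂ) *
          classInner (fun q => (a : Q → ℂ) q * conj ((b : Q → ℂ) q)) η := by
      intro η
      have e : (fun q : Q => F q) = fun q => ∑ a : IrrCharacter Q, (m a : ℂ) *
          ∑ b : IrrCharacter Q, (m b : ℂ) * ((a : Q → ℂ) q * conj ((b : Q → ℂ) q)) := by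
        funext q
        have e := classFunction_expand (IsCharacter.isClassFunction hχQ) q
        simp only [hm] at e
        simp only [F, e, map_sum, map_mul, map_natCast, Finset.sum_mul, Finset.mul_sum]
        first | skip | rw [Finset.sum_comm]
        rw [Finset.sum_comm]
        exact Finset.sum_congr rfl fun a _ => Finset.sum_congr rfl fun b _ => by ring
      rw [e, classInner_sum]
      refine Finset.sum_congr rfl fun a _ => ?_
      rw [classInner_sum, Finset.mul_sum]
      exact Finset.sum_congr rfl fun b _ => by push_cast; ring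
    have hprod : ∀ a b : IrrCharacter Q,
        IsCharacter Q (fun q => (a : Q → ℂ) q * conj ((b : Q → ℂ) q)) := fun a b =>
      IsCharacter.mul (isCharacter_irr a)
        (isCharacter_irr (⟨_, isIrrCharacter_conj b⟩ : IrrCharacter Q))
    choose k hk using fun (a b : IrrCharacter Q) => exists_mult (hprod a b) (homIrr lam)
    choose k' hk' using fun (a b : IrrCharacter Q) => exists_mult (hprod a b) (trivIrr Q)
    have hkθ : k θ θ ≠ 0 := fun h0 => hlam (by
      have := hk θ θ
      rw [h0, Nat.cast_zero] at this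
      exact this)
    have hpos : classInner (fun q : Q => F q) (fun q => (lam q : ℂ)) ≠ 0 := by
      rw [show (fun q => (lam q : ℂ)) = (homIrr lam : Q → ℂ) from rfl, hsum]
      simp only [hk, ← Nat.cast_mul, ← Nat.cast_sum]
      rw [Nat.cast_ne_zero]
      intro h0
      simp only [Finset.sum_eq_zero_iff, Finset.mem_univ, true_implies, mul_eq_zero] at h0
      rcases h0 θ θ with h | h
      · exact hθm (h.elim id id)
      · exact hkθ h
    obtain ⟨t, ht, hle⟩ := horb F hFc lam hne hpos
    rw [hsum] at ht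
    simp only [hk', ← Nat.cast_mul, ← Nat.cast_sum, Nat.cast_inj] at ht
    have hkθ1 : k' θ θ = 1 := by
      have h1 := hk' θ θ
      have h2 := classInner_irr θ θ
      rw [if_pos rfl] at h2
      have e : classInner (fun q => (θ : Q → ℂ) q * conj ((θ : Q → ℂ) q)) (trivIrr Q : Q → ℂ) = 1 := by
        rw [← h2]; simp [classInner, trivIrr]
      rw [e] at h1
      exact_mod_cast h1.symm
    have ht1 : 1 ≤ t := by
      rw [← ht]
      refine le_trans ?_ (Finset.single_le_sum
        (f := fun a => ∑ b, m a * m b * k' a b) (fun _ _ => Nat.zero_le _) (Finset.mem_univ θ))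
      refine le_trans ?_ (Finset.single_le_sum
        (f := fun b => m θ * m b * k' θ b) (fun _ _ => Nat.zero_le _) (Finset.mem_univ θ))
      rw [hkθ1]
      nlinarith [Nat.one_le_iff_ne_zero.mpr hθm]
    rw [hF1] at hle
    nlinarith

end CfsgLib.Blocks.CFree
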