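import Cfsg.Agent.Lib.Blocks.Contribution
import Cfsg.Agent.Lib.Blocks.DefectClass

/-!
Values of height zero characters at classes whose centralizer has the defect of the block.
-/

namespace CfsgLib.Blocks

open Cfsg CfsgLib.Chars

universe u

variable {G : Type u} [Group G] [Fintype G] {p : ℕ} {M : Ideal AlgInt}

/-- At a class of the defect of the block, the central character of a height zero member is a
unit multiple of the value. -/
theorem mli_centralChar_iff_of_height_zero (hM : IsPModular p M) {B : Set (IrrCharacter G)}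
    {χ : IrrCharacter G} (hχ : χ ∈ B) (h0 : blockHeight p B (χ : G → ℂ) = 0) {z : G}
    (hz : (Nat.card (Subgroup.centralizer ({z} : Set G))).factorization p = blockDefect p B) :
    MemLocalIdeal M (centralChar (χ : G → ℂ) z) ↔ MemLocalIdeal M ((χ : G → ℂ) z) := by
  classical
  set n := (Subgroup.centralizer ({z} : Set G)).index with hn
  set e := (charDegree (χ : G → ℂ)).factorization p with he
  have hidx : n.factorization p = e := by
    have h1 := congrArg (fun m : ℕ => m.factorization p)
      (Subgroup.centralizer ({z} : Set G)).index_mul_card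
    simp only [Nat.factorization_mul (Subgroup.centralizer ({z} : Set G)).index_ne_zero_of_finite
      Nat.card_pos.ne', Finsupp.add_apply] at h1
    have h2 := minExp_add_defect (p := p) hχ
    have h3 := minExp_add_height (p := p) hχ
    rw [← he, h0] at h3
    rw [← hn] at h1
    omega
  have hdeg := Nat.ordProj_mul_ordCompl_eq_self (charDegree (χ : G → ℂ)) p
  have hind := Nat.ordProj_mul_ordCompl_eq_self n p
  rw [← he] at hdeg
  rw [hidx] at hind
  have hd' := Nat.not_dvd_ordCompl hM.1 (charDegree_pos χ).ne'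
  have hn' := Nat.not_dvd_ordCompl hM.1
    (Subgroup.centralizer ({z} : Set G)).index_ne_zero_of_finite
  rw [← he] at hd'
  rw [← hn, hidx] at hn'
  have key : centralChar (χ : G → ℂ) z = ((n / p ^ e : ℕ) : ℂ) *
      ((charDegree (χ : G → ℂ) / p ^ e : ℕ) : ℂ)⁻¹ * (χ : G → ℂ) z := by
    conv_lhs => rw [centralChar, irr_apply_one, ← hdeg, ← hn, ← hind]
    have hp0 : ((p : ℂ) ^ e) ≠ 0 := pow_ne_zero _ (Nat.cast_ne_zero.mpr hM.1.ne_zero)
    push_cast
    rw [mul_assoc, mul_div_mul_left _ _ hp0, div_eq_mul_inv]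
    ring
  have hnz : ((n / p ^ e : ℕ) : ℂ) ≠ 0 := Nat.cast_ne_zero.mpr fun h => hn' (h ▸ dvd_zero p)
  have hdz : ((charDegree (χ : G → ℂ) / p ^ e : ℕ) : ℂ) ≠ 0 :=
    Nat.cast_ne_zero.mpr fun h => hd' (h ▸ dvd_zero p)
  constructor
  · intro h
    have h2 := mli_mul_left hM (mlr_mul hM (mlr_natCast_inv hM hn')
      (mlr_natCast hM (charDegree (χ : G → ℂ) / p ^ e))) h
    rw [key] at h2
    convert h2 using 1
    field_simp
  · intro h
    rw [key]
    exact mli_mul_left hM (mlr_mul hM (mlr_natCast hM _) (mlr_natCast_inv hM hd')) h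

/-- The centralizer of a defect class has the defect of the block. -/
theorem factorization_centralizer_eq_defect (hM : IsPModular p M) {B : Set (IrrCharacter G)}
    (hB : IsPBlock M B) {g : G} (hg : IsDefectClass M B g) :
    (Nat.card (Subgroup.centralizer ({g} : Set G))).factorization p = blockDefect p B := by
  haveI : Fact p.Prime := ⟨hM.1⟩
  obtain ⟨P⟩ : Nonempty (Sylow p (Subgroup.centralizer ({g} : Set G))) := inferInstance
  have h1 := card_defectGroup hM hB ⟨g, hg, P, rfl⟩
  rw [Subgroup.card_map_of_injective (Subgroup.subtype_injective _), P.card_eq_multiplicity] at h1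
  exact Nat.pow_right_injective hM.1.two_le h1

/-- A height zero character is a unit at a defect class. -/
theorem not_mli_apply_defectClass (hM : IsPModular p M) {B : Set (IrrCharacter G)}
    (hB : IsPBlock M B) {g : G} (hg : IsDefectClass M B g) {χ : IrrCharacter G} (hχ : χ ∈ B)
    (h0 : blockHeight p B (χ : G → ℂ) = 0) : ¬ MemLocalIdeal M ((χ : G → ℂ) g) := fun h =>
  hg.2.2 χ hχ ((mli_centralChar_iff_of_height_zero hM hχ h0
    (factorization_centralizer_eq_defect hM hB hg)).mpr h)

/-- Every block has a member of height zero. -/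
theorem exists_height_zero (hM : IsPModular p M) {B : Set (IrrCharacter G)} (hB : IsPBlock M B) :
    ∃ χ ∈ B, blockHeight p B (χ : G → ℂ) = 0 := by
  obtain ⟨φ, hφ⟩ := IsPBlock.nonempty hM hB
  obtain ⟨χ, hχ, e⟩ := Nat.sInf_mem (s := (fun ψ : IrrCharacter G =>
    (charDegree (ψ : G → ℂ)).factorization p) '' B) ⟨_, φ, hφ, rfl⟩
  exact ⟨χ, hχ, Nat.sub_eq_zero_iff_le.mpr (le_of_eq e)⟩

end CfsgLib.Blocks
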