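import Cfsg.Agent.Lib.Blocks.InertialQuotient

/-!
Blocks of `P C(P)`.
-/

namespace CfsgLib.Blocks

set_option linter.style.haveILetI false

open scoped ComplexConjugate
open Cfsg CfsgLib.Chars

universe u

variable {G : Type u} [Group G] [Fintype G] {p : ℕ} {M : Ideal AlgInt}

omit [Fintype G] in
theorem pc_le_normalizer (P : Subgroup G) :
    P ⊔ Subgroup.centralizer (P : Set G) ≤ Subgroup.normalizer (P : Set G) :=
  sup_le Subgroup.le_normalizer (Subgroup.centralizer_le_normalizer (P : Set G))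

theorem pc_stab (hM : IsPModular p M) {P : Subgroup G}
    {e : Set (IrrCharacter (Subgroup.centralizer (P : Set G)))} (he : IsPBlock M e) :
    ∀ x ∈ P ⊔ Subgroup.centralizer (P : Set G),
      StabilizesBlock (Subgroup.centralizer (P : Set G)) e x := fun _ hx =>
  (sup_le (le_pairStab hM he) (centralizer_le_pairStab hM he) hx).2

variable {P H : Subgroup G} [Fintype H]

/-- The block of `P C(P)` over a block of `C(P)`. -/
theorem exists_pc_block (hM : IsPModular p M) (hP : IsPGroup p P)
    (hH : H = P ⊔ Subgroup.centralizer (P : Set G))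
    {e : Set (IrrCharacter (Subgroup.centralizer (P : Set G)))} (he : IsPBlock M e) :
    ∃ b : Set (IrrCharacter H), IsPBlock M b ∧ ∀ t : H,
      blockCoeff b t = subgroupBlockCoeff (Subgroup.centralizer (P : Set G)) e (t : G) :=
  exists_stab_block hM hP he (hH ▸ le_sup_left) (hH ▸ le_sup_right) (hH ▸ pc_le_normalizer P)
    (hH ▸ pc_stab hM he)

/-- Every block of `P C(P)` lies over a block of `C(P)`, with the same idempotent. -/
theorem pc_block_cover (hM : IsPModular p M) (hP : IsPGroup p P)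
    (hH : H = P ⊔ Subgroup.centralizer (P : Set G)) {b : Set (IrrCharacter H)} (hb : IsPBlock M b) :
    ∃ e : Set (IrrCharacter (Subgroup.centralizer (P : Set G))), IsPBlock M e ∧ ∀ t : H,
      blockCoeff b t = subgroupBlockCoeff (Subgroup.centralizer (P : Set G)) e (t : G) := by
  classical
  have hCH : Subgroup.centralizer (P : Set G) ≤ H := hH ▸ le_sup_right
  have hbs : ∀ g, g ∉ Subgroup.centralizer (P : Set G) → ext0 H (blockCoeff b) g = 0 := fun g hg =>
    blockCoeff_supp_ext0 hM hP (hH ▸ le_sup_left) (hH ▸ pc_le_normalizer P) hb hg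
  have hinv : ConjInv (Subgroup.centralizer (P : Set G)) (ext0 H (blockCoeff b)) :=
    fun s hs g => ext0_conj H (blockCoeff_isClassFunction b) (hCH hs) g
  obtain ⟨c, hc⟩ := exists_isDefectClass hM hb
  have hcC : (c : G) ∈ Subgroup.centralizer (P : Set G) :=
    mem_centralizer_of_blockCoeff hM hP (hH ▸ le_sup_left) (hH ▸ pc_le_normalizer P) hb
      fun h => hc.2.1 (h ▸ mli_zero hM)
  have hr := rest_isClassFunction _ hinv
  obtain ⟨e, he, h1⟩ := exists_block_omega_one hM hr (fun x => by
      show MemLocalRing M (ext0 H (blockCoeff b) (x : G))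
      rw [ext0, dif_pos (hCH x.2)]
      exact mlr_blockCoeff hM hb _)
    (fun x => by
      rw [← conv_rest _ hbs, conv_ext0, conv_blockCoeff_self, sub_self]
      exact mli_zero hM) (z := ⟨(c : G), hcC⟩) (by
      show ¬ MemLocalIdeal M (ext0 H (blockCoeff b) (c : G))
      rw [ext0_apply]; exact hc.2.1)
  obtain ⟨F, hF, hFc⟩ := exists_pc_block hM hP hH he
  refine ⟨e, he, ?_⟩
  suffices F = b by rw [← this]; exact hFc
  by_contra hne
  obtain ⟨η, hη⟩ := IsPBlock.nonempty hM he
  have hF0 : ext0 H (blockCoeff F) = subgroupBlockCoeff (Subgroup.centralizer (P : Set G)) e := by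
    funext g
    by_cases hg : g ∈ H
    · rw [ext0, dif_pos hg, hFc]
    · rw [ext0, dif_neg hg, sbc_of_notMem _ _ fun h => hg (hCH h)]
  have h0 : Chars.conv (blockCoeff e)
      (fun x : Subgroup.centralizer (P : Set G) => ext0 H (blockCoeff b) (x : G)) = fun _ => 0 := by
    funext x
    rw [← show (fun x : Subgroup.centralizer (P : Set G) => subgroupBlockCoeff _ e (x : G)) =
      blockCoeff e from funext fun x => sbc_apply _ e x,
      ← conv_rest _ (fun g hg => sbc_of_notMem _ e hg), ← hF0, conv_ext0]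
    have hz : indic F * indic b = 0 := funext fun θ => by
      by_cases h : θ ∈ F
      · rw [Pi.mul_apply, indic_of_notMem fun h' => hne (IsPBlock.eq_of_mem hM hF hb h h'), mul_zero]
        rfl
      · rw [Pi.mul_apply, indic_of_notMem h, zero_mul]; rfl
    rw [show Chars.conv (blockCoeff F) (blockCoeff b) = fun _ => (0 : ℂ) from by
      rw [funext (blockCoeff_eq_coeffFun F), funext (blockCoeff_eq_coeffFun b), ← coeffFun_mul, hz]
      funext y; simp [coeffFun]]
    simp [ext0]
  have h2 := omega_conv η (blockCoeff_isClassFunction e) hr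
  rw [h0, omega_blockCoeff, indic_of_mem hη, one_mul] at h2
  refine not_mli_of_sub_one hM (h1 η hη) ?_
  rw [← h2]
  simp [omega, mli_zero hM]

/-- Inducing from `P C(P)` is being a pair of the block. -/
theorem pc_induced_iff (hM : IsPModular p M) (hP : IsPGroup p P)
    (hH : H = P ⊔ Subgroup.centralizer (P : Set G))
    {e : Set (IrrCharacter (Subgroup.centralizer (P : Set G)))} (he : IsPBlock M e)
    {b : Set (IrrCharacter H)} (hb : IsPBlock M b)
    (hcoef : ∀ t : H, blockCoeff b t = subgroupBlockCoeff (Subgroup.centralizer (P : Set G)) e (t : G))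
    {B : Set (IrrCharacter G)} (hB : IsPBlock M B) :
    IsInducedBlock M H b B ↔ IsBrauerPairOf p M B P e := by
  classical
  have hPH : P ≤ H := hH ▸ le_sup_left
  have hC : Subgroup.centralizer (P : Set G) ≤ H := hH ▸ le_sup_right
  have hN : H ≤ Subgroup.normalizer (P : Set G) := hH ▸ pc_le_normalizer P
  obtain ⟨ξ, hξ⟩ := IsPBlock.nonempty hM hb
  rw [isInducedBlock_iff_brVal hM hP hPH hC hN hb hB (ξ₀ := ξ) hξ]
  have key := fun η (hη : η ∈ e) => omega_trunc_stab hM hP he hC hN hcoef hξ hη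
    (blockCoeff_isClassFunction B) (mlr_blockCoeff hM hB) (conv_blockCoeff_self B)
  constructor
  · intro hne
    refine ⟨⟨hP, he⟩, hB, fun η hη => ?_⟩
    have h1 := (brVal_block_cases hM hP hC hN ξ hB).resolve_left hne
    convert mli_sub hM h1 (key η hη) using 1
    ring
  · intro hpair
    obtain ⟨η, hη⟩ := IsPBlock.nonempty hM he
    refine not_mli_of_sub_one hM ?_
    convert mli_add hM (key η hη) (hpair.2.2 η hη) using 1
    ring

theorem pc_block_defect_maximal (hM : IsPModular p M)
    (hH : H = P ⊔ Subgroup.centralizer (P : Set G)) {B : Set (IrrCharacter G)}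
    {e : Set (IrrCharacter (Subgroup.centralizer (P : Set G)))}
    (hmax : IsMaximalBrauerPair p M B P e) {b : Set (IrrCharacter H)} (hb : IsPBlock M b)
    (hcoef : ∀ t : H, blockCoeff b t = subgroupBlockCoeff (Subgroup.centralizer (P : Set G)) e (t : G)) :
    IsDefectGroup p M b (P.subgroupOf H) := by
  classical
  have hP := hmax.1.1.1
  have he := hmax.1.1.2
  have hPH : P ≤ H := hH ▸ le_sup_left
  have hN : H ≤ Subgroup.normalizer (P : Set G) := hH ▸ pc_le_normalizer P
  haveI : (P.subgroupOf H).Normal := (Subgroup.normal_subgroupOf_iff_le_normalizer hPH).mpr hN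
  obtain ⟨D, hD⟩ := exists_isDefectGroup hM hb
  have hge := normal_pGroup_le_defectGroup hM (P.subgroupOf H)
    (hP.of_equiv (Subgroup.subgroupOfEquivOfLe hPH).symm) hb hD
  obtain ⟨c, hc, S, hS⟩ := id hD
  set R := D.map H.subtype with hR
  have hPR : P ≤ R := fun q hq => ⟨⟨q, hPH hq⟩, hge hq, rfl⟩
  have hcC : (c : G) ∈ Subgroup.centralizer (R : Set G) := by
    rw [Subgroup.mem_centralizer_iff]
    rintro _ ⟨d, hd, rfl⟩
    exact congrArg Subtype.val (Subgroup.mem_centralizer_singleton_iff.mp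
      ((hS ▸ Subgroup.map_subtype_le _ : D ≤ _) hd))
  have hRH : R ≤ H := Subgroup.map_subtype_le _
  obtain ⟨g, hg⟩ := exists_pair_above_of_unit hM he ((defectGroup_isPGroup hD).map H.subtype) hPR
    (fun y hy => hN (hRH hy)) (fun y hy => pc_stab hM he y (hH ▸ hRH hy)) hcC
    (by rw [← hcoef]; exact hc.2.1)
  have hRP : R = P := hmax.2 R g ((brauerPairOf_iff_normal hM hg hmax.1.2.1).mpr hmax.1)
    (Relation.ReflTransGen.single hg)
  have : D = P.subgroupOf H := by
    refine le_antisymm (fun d hd => ?_) hge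
    exact hRP.le (show (d : G) ∈ R from ⟨d, hd, rfl⟩)
  rwa [← this]

/-- Conjugate pairs have conjugate blocks of `P C(P)`. -/
theorem pc_block_conj (hM : IsPModular p M)
    {e e' : Set (IrrCharacter (Subgroup.centralizer (P : Set G)))}
    {b b' : Set (IrrCharacter H)} (hb : IsPBlock M b) (hb' : IsPBlock M b')
    (hcoef : ∀ t : H, blockCoeff b t = subgroupBlockCoeff (Subgroup.centralizer (P : Set G)) e (t : G))
    (hcoef' : ∀ t : H, blockCoeff b' t = subgroupBlockCoeff (Subgroup.centralizer (P : Set G)) e' (t : G))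
    {m : G} (hmN : m ∈ Subgroup.normalizer (P : Set G))
    (hmH : m ∈ Subgroup.normalizer (H : Set G))
    (he : pairConj m ⟨P, e⟩ = (⟨P, e'⟩ : BrauerPairIdx G)) :
    b' = mapBlock (normConj H hmH) b := by
  classical
  rw [pairConj_normalizer P hmN] at he
  have h2 := eq_of_heq (Sigma.mk.inj_iff.mp he).2
  refine block_ext hM hb' (isPBlock_mapBlock hM _ hb) fun t => ?_
  obtain ⟨s, rfl⟩ := (normConj H hmH).surjective t
  rw [blockCoeff_mapBlock, hcoef, hcoef', ← h2]
  exact sbc_mapBlock_conj _ _ e (s : G)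

omit [Fintype H] in
theorem mem_normalizer_pc (hH : H = P ⊔ Subgroup.centralizer (P : Set G)) {m : G}
    (hm : m ∈ Subgroup.normalizer (P : Set G)) : m ∈ Subgroup.normalizer (H : Set G) := by
  have hmap : ∀ A : Subgroup G, m ∈ Subgroup.normalizer (A : Set G) →
      A.map (MulAut.conj m).toMonoidHom = A := fun A hA => by
    ext g
    constructor
    · rintro ⟨q, hq, rfl⟩; exact (Subgroup.mem_normalizer_iff.mp hA q).mp hq
    · intro hg
      refine ⟨m⁻¹ * g * m, ?_, by simp [mul_assoc]⟩
      have := (Subgroup.mem_normalizer_iff.mp (inv_mem hA) g).mp hg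
      simpa using this
  have hHm : H.map (MulAut.conj m).toMonoidHom = H := by
    rw [hH, Subgroup.map_sup, hmap P hm, hmap _ (normalizer_le_normalizer_centralizer P hm)]
  refine Subgroup.mem_normalizer_iff.mpr fun g => ?_
  conv_rhs => rw [← hHm]
  exact ⟨fun hg => ⟨g, hg, rfl⟩, fun ⟨q, hq, e⟩ => (MulAut.conj m).injective e ▸ hq⟩

/-- The defect criterion through the inertial index. -/
theorem pc_defect_iff (hM : IsPModular p M) (hP : IsPGroup p P)
    (hH : H = P ⊔ Subgroup.centralizer (P : Set G))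
    {e : Set (IrrCharacter (Subgroup.centralizer (P : Set G)))} (he : IsPBlock M e)
    {b : Set (IrrCharacter H)} (hb : IsPBlock M b)
    (hcoef : ∀ t : H, blockCoeff b t = subgroupBlockCoeff (Subgroup.centralizer (P : Set G)) e (t : G))
    (hbP : IsDefectGroup p M b (P.subgroupOf H)) {B : Set (IrrCharacter G)}
    (hpair : IsBrauerPairOf p M B P e) {T : Subgroup G}
    (hT : ∀ y, y ∈ T ↔ y ∈ pairStab hM he) :
    IsDefectGroup p M B P ↔ ¬ p ∣ H.relIndex T := by
  classical
  haveI : Fact p.Prime := ⟨hM.1⟩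
  have hPH : P ≤ H := hH ▸ le_sup_left
  have hC : Subgroup.centralizer (P : Set G) ≤ H := hH ▸ le_sup_right
  have hHT : H ≤ T := fun y hy => (hT y).mpr
    (sup_le (le_pairStab hM he) (centralizer_le_pairStab hM he) (hH ▸ hy))
  have hTN : ∀ y ∈ T, y ∈ Subgroup.normalizer (P : Set G) := fun y hy => ((hT y).mp hy).1
  haveI : (H.subgroupOf T).Normal := (Subgroup.normal_subgroupOf_iff_le_normalizer hHT).mpr
    fun y hy => mem_normalizer_pc hH (hTN y hy)
  constructor
  · intro hD hdvd
    have hmax := maximal_of_defectGroup hM hpair hD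
    haveI : Fintype (T ⧸ H.subgroupOf T) := Fintype.ofFinite _
    obtain ⟨q, hq⟩ := exists_prime_orderOf_dvd_card' (G := T ⧸ H.subgroupOf T) p
      (by rwa [← Subgroup.index_eq_card])
    obtain ⟨y, rfl⟩ := QuotientGroup.mk_surjective q
    obtain ⟨z, v, hzv, -, ⟨k, hk⟩, hv⟩ := exists_pPart hM.1 y
    have hzT := (hT (z : G)).mp z.2
    have hzH : z ∈ H.subgroupOf T :=
      show (z : G) ∈ H from hH ▸ maximal_pElement_mem hM hmax hzT.1 hzT.2
        ⟨k, by rw [Subgroup.orderOf_coe]; exact hk⟩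
    have h1 : orderOf ((y : T) : T ⧸ H.subgroupOf T) ∣ orderOf v := by
      rw [← hzv, QuotientGroup.mk_mul, (QuotientGroup.eq_one_iff z).mpr hzH, one_mul]
      exact orderOf_map_dvd (QuotientGroup.mk' _) v
    rw [hq] at h1
    exact hv h1
  · intro hnd
    refine maximal_isDefectGroup hM (e := e) ⟨hpair, fun R g hg hle => ?_⟩
    by_contra hne
    obtain ⟨R', g', hlt, hstep, -⟩ := SubpairLE.first_step hM hle (Ne.symm hne)
    have hR'T : R' ≤ T := fun y hy => (hT y).mpr ⟨hstep.2.2.2.1 hy, hstep.2.2.2.2.1 y hy⟩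
    have hR'H : R' ≤ H := by
      intro y hy
      have hpy : ∃ k, orderOf (⟨y, hR'T hy⟩ : T) = p ^ k := by
        obtain ⟨k, hk⟩ := IsPGroup.iff_orderOf.mp hstep.2.1.1 ⟨y, hy⟩
        exact ⟨k, by rw [← hk, ← Subgroup.orderOf_coe, ← Subgroup.orderOf_coe]⟩
      obtain ⟨k, hk⟩ := hpy
      have h1 : orderOf ((⟨y, hR'T hy⟩ : T) : T ⧸ H.subgroupOf T) ∣ p ^ k :=
        hk ▸ orderOf_map_dvd (QuotientGroup.mk' _) _
      have h2 : orderOf ((⟨y, hR'T hy⟩ : T) : T ⧸ H.subgroupOf T) ∣ H.relIndex T :=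
        orderOf_dvd_natCard _ |>.trans (dvd_of_eq (Subgroup.index_eq_card _).symm)
      have h3 := orderOf_eq_one_iff.mp (Nat.eq_one_of_dvd_coprimes
        (Nat.Coprime.pow_left k (hM.1.coprime_iff_not_dvd.mpr hnd)) h1 h2)
      exact ((QuotientGroup.eq_one_iff _).mp h3 : (⟨y, hR'T hy⟩ : T) ∈ H.subgroupOf T)
    obtain ⟨z, hzC, hz⟩ := exists_unit_of_normalSubpair hM hstep
    have hzH : z ∈ H := hC (Subgroup.centralizer_le hlt.le hzC)
    obtain ⟨x, hx⟩ := pGroup_le_defectGroup hM hb hbP (h := ⟨z, hzH⟩)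
      (by rw [hcoef]; exact hz)
      (hstep.2.1.1.of_equiv (Subgroup.subgroupOfEquivOfLe hR'H).symm)
      (fun r hr => Subgroup.mem_centralizer_singleton_iff.mpr
        (Subtype.ext (Subgroup.mem_centralizer_iff.mp hzC (r : G) hr)))
    have h1 := Subgroup.card_le_of_le hx
    rw [card_map_conj, Nat.card_congr (Subgroup.subgroupOfEquivOfLe hR'H).toEquiv,
      Nat.card_congr (Subgroup.subgroupOfEquivOfLe hPH).toEquiv] at h1
    exact hlt.ne (Subgroup.eq_of_le_of_card_ge hlt.le h1)

end CfsgLib.Blocks
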