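import Cfsg.Agent.Lib.Blocks.PInflate
import Cfsg.Agent.Lib.Blocks.BrauerHom
import Cfsg.Agent.Lib.Blocks.DefectClass
import Cfsg.Agent.Lib.Chars.Kernel
import Mathlib.GroupTheory.Sylow

/-!
Defect groups of blocks of a quotient group.
-/

namespace CfsgLib.Blocks

set_option linter.style.haveILetI false

open scoped ComplexConjugate Pointwise
open Cfsg CfsgLib.Chars

universe u

variable {G : Type u} [Group G] [Fintype G] {p : ℕ} {M : Ideal AlgInt}

omit [Fintype G] in
/-- The image of a Sylow subgroup of `C(g)` is a Sylow subgroup of `C(gN)` when the index is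
prime to `p`. -/
theorem exists_sylow_image [Finite G] [Fact p.Prime] (N : Subgroup G) [N.Normal] {g : G}
    (P : Sylow p (Subgroup.centralizer ({g} : Set G)))
    (hidx : ¬ p ∣ (Subgroup.centralizer ({g} : Set G)).relIndex
      ((Subgroup.centralizer ({(g : G ⧸ N)} : Set (G ⧸ N))).comap (QuotientGroup.mk' N))) :
    ∃ S : Sylow p (Subgroup.centralizer ({(g : G ⧸ N)} : Set (G ⧸ N))),
      (S : Subgroup (Subgroup.centralizer ({(g : G ⧸ N)} : Set (G ⧸ N)))).map
          (Subgroup.centralizer ({(g : G ⧸ N)} : Set (G ⧸ N))).subtype =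
        ((P : Subgroup (Subgroup.centralizer ({g} : Set G))).map
          (Subgroup.centralizer ({g} : Set G)).subtype).map (QuotientGroup.mk' N) := by
  set Cb := Subgroup.centralizer ({(g : G ⧸ N)} : Set (G ⧸ N))
  set H := (P : Subgroup (Subgroup.centralizer ({g} : Set G))).map (Subgroup.centralizer ({g} : Set G)).subtype with hH
  set Hb := H.map (QuotientGroup.mk' N) with hHb
  have hle : Hb ≤ Cb :=
    Subgroup.map_le_iff_le_comap.mpr ((Subgroup.map_subtype_le _).trans (centralizer_le_comap N g))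
  have hp : IsPGroup p (Hb.subgroupOf Cb) :=
    ((P.isPGroup'.map (Subgroup.centralizer ({g} : Set G)).subtype).map (QuotientGroup.mk' N)).of_equiv
      (Subgroup.subgroupOfEquivOfLe hle).symm
  have h1 : H.relIndex (Subgroup.centralizer ({g} : Set G)) = (P : Subgroup (Subgroup.centralizer ({g} : Set G))).index := by
    rw [Subgroup.relIndex, hH, Subgroup.subgroupOf,
      Subgroup.comap_map_eq_self_of_injective (Subgroup.subtype_injective _)]
  have h2 : H.relIndex (Cb.comap (QuotientGroup.mk' N)) =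
      H.relIndex (Subgroup.centralizer ({g} : Set G)) * (Subgroup.centralizer ({g} : Set G)).relIndex (Cb.comap (QuotientGroup.mk' N)) :=
    (Subgroup.relIndex_mul_relIndex _ _ _ (Subgroup.map_subtype_le _)
      (centralizer_le_comap N g)).symm
  have h3 : Hb.relIndex Cb ∣ H.relIndex (Cb.comap (QuotientGroup.mk' N)) := by
    have e : Hb.relIndex Cb =
        (Hb.comap (QuotientGroup.mk' N)).relIndex (Cb.comap (QuotientGroup.mk' N)) := by
      rw [Subgroup.relIndex_comap,
        Subgroup.map_comap_eq_self_of_surjective (QuotientGroup.mk'_surjective N)]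
    rw [e]
    exact Subgroup.relIndex_dvd_of_le_left _ (Subgroup.le_comap_map _ _)
  have hnd : ¬ p ∣ (Hb.subgroupOf Cb).index := fun h => by
    have h4 := h.trans h3
    rw [h2, h1] at h4
    exact ((Fact.out : p.Prime).dvd_mul.mp h4).elim P.not_dvd_index hidx
  refine ⟨hp.toSylow hnd, ?_⟩
  rw [IsPGroup.toSylow_coe, Subgroup.subgroupOf_map_subtype, inf_eq_left.mpr hle, hHb, hH]

omit [Fintype G] in
theorem map_conj_mk (N : Subgroup G) [N.Normal] (H : Subgroup G) (a : G) :
    (H.map (MulAut.conj a).toMonoidHom).map (QuotientGroup.mk' N) =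
      (H.map (QuotientGroup.mk' N)).map (MulAut.conj (a : G ⧸ N)).toMonoidHom := by
  rw [Subgroup.map_map, Subgroup.map_map]
  rfl

omit [Fintype G] in
theorem map_conj_map_conj_inv (H : Subgroup G) (a : G) :
    (H.map (MulAut.conj a).toMonoidHom).map (MulAut.conj a⁻¹).toMonoidHom = H := by
  rw [Subgroup.map_map]
  convert Subgroup.map_id H
  ext x
  simp [mul_assoc]

/-- Defect groups of a block of a quotient are below images of defect groups of the block
containing its inflations. -/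
theorem defectGroup_quotient_le (hM : IsPModular p M) (N : Subgroup G) [N.Normal]
    {Bbar : Set (IrrCharacter (G ⧸ N))} (hBbar : IsPBlock M Bbar) {B : Set (IrrCharacter G)}
    (hB : IsPBlock M B)
    (hsub : ∀ χ ∈ Bbar, ∀ ψ : IrrCharacter G,
      (ψ : G → ℂ) = (χ : G ⧸ N → ℂ) ∘ QuotientGroup.mk → ψ ∈ B)
    {Dbar : Subgroup (G ⧸ N)} (hDbar : IsDefectGroup p M Bbar Dbar) :
    ∃ P : Subgroup G, IsDefectGroup p M B P ∧ Dbar ≤ P.map (QuotientGroup.mk' N) := by
  classical
  haveI : Fact p.Prime := ⟨hM.1⟩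
  haveI : Fintype (G ⧸ N) := Fintype.ofFinite _
  obtain ⟨g, hg⟩ := exists_isDefectClass hM hB
  obtain ⟨P⟩ : Nonempty (Sylow p (Subgroup.centralizer ({g} : Set G))) := inferInstance
  obtain ⟨χ, hχ⟩ := IsPBlock.nonempty hM hBbar
  have hω := hg.2.2 ⟨_, isIrrCharacter_inflate N χ⟩ (hsub χ hχ _ rfl)
  simp only [] at hω
  rw [centralChar_inflate] at hω
  have hk : ¬ p ∣ (Subgroup.centralizer ({g} : Set G)).relIndex
      ((Subgroup.centralizer ({(g : G ⧸ N)} : Set (G ⧸ N))).comap (QuotientGroup.mk' N)) :=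
    fun h => hω (mli_mul_right hM ((mli_natCast_iff hM _).mpr h) (mlr_centralChar hM χ _))
  have hωb : ¬ MemLocalIdeal M (centralChar (χ : G ⧸ N → ℂ) (g : G ⧸ N)) :=
    fun h => hω (mli_mul_left hM (mlr_natCast hM _) h)
  obtain ⟨S, hS⟩ := exists_sylow_image N P hk
  obtain ⟨x, hx⟩ := defectGroup_le_centralizer hM hBbar hDbar hχ hωb
  obtain ⟨y, hy⟩ := exists_conj_centralizer_le_sylow
    ((defectGroup_isPGroup hDbar).map (MulAut.conj x).toMonoidHom) hx S
  obtain ⟨a, ha⟩ := QuotientGroup.mk_surjective (y * x)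
  refine ⟨_, isDefectGroup_map_conj hM ⟨g, hg, P, rfl⟩ a⁻¹, ?_⟩
  rw [map_conj_mk, QuotientGroup.mk_inv, ha, ← hS]
  refine le_trans (le_of_eq (map_conj_map_conj_inv Dbar (y * x)).symm) ?_
  refine Subgroup.map_mono (le_trans (le_of_eq ?_) hy)
  rw [Subgroup.map_map, map_mul]
  rfl

/-- Some block of the quotient by a normal `p`-subgroup has the images of the defect groups as
its defect groups. -/
theorem exists_block_quotient_defect (hM : IsPModular p M) (N : Subgroup G) [N.Normal]
    (hN : IsPGroup p N) {B : Set (IrrCharacter G)} (hB : IsPBlock M B) :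
    ∃ Bbar : Set (IrrCharacter (G ⧸ N)), IsPBlock M Bbar ∧
      (∀ χ ∈ Bbar, ∀ ψ : IrrCharacter G,
        (ψ : G → ℂ) = (χ : G ⧸ N → ℂ) ∘ QuotientGroup.mk → ψ ∈ B) ∧
      ∀ Dbar : Subgroup (G ⧸ N), IsDefectGroup p M Bbar Dbar ↔
        ∃ P : Subgroup G, IsDefectGroup p M B P ∧ Dbar = P.map (QuotientGroup.mk' N) := by
  classical
  haveI : Fact p.Prime := ⟨hM.1⟩
  haveI : Fintype (G ⧸ N) := Fintype.ofFinite _
  obtain ⟨g, hg⟩ := exists_isDefectClass hM hB
  obtain ⟨θ₀, hθ₀⟩ := IsPBlock.nonempty hM hB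
  have hreg : ¬ p ∣ orderOf g := fun h => hg.2.1 (by
    rw [blockCoeff_eq_zero_of_singular hM hB h]; exact mli_zero hM)
  have hgN : g ∈ Subgroup.centralizer (N : Set G) := by
    by_contra h
    exact hg.2.2 θ₀ hθ₀ (mli_centralChar_of_notMem hM N hN θ₀ h)
  have hone := relIndex_eq_one_of_centralizes hM N hN hreg hgN
  let infl : IrrCharacter (G ⧸ N) → IrrCharacter G := fun φ => ⟨_, isIrrCharacter_inflate N φ⟩
  set A : Set (IrrCharacter (G ⧸ N)) := {φ | infl φ ∈ B} with hA
  -- the fibre sums of the idempotent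
  set f : G ⧸ N → ℂ := fun q => ∑ x ∈ Finset.univ.filter (fun x : G => (x : G ⧸ N) = q),
    blockCoeff B x with hf
  have hfc : IsClassFunction (G ⧸ N) f := by
    intro q r
    obtain ⟨a, rfl⟩ := QuotientGroup.mk_surjective r
    refine (Finset.sum_equiv (MulAut.conj a).toEquiv ?_ ?_).symm
    · intro x
      simp only [Finset.mem_filter, Finset.mem_univ, true_and, MulEquiv.toEquiv_eq_coe,
        EquivLike.coe_coe, MulAut.conj_apply, QuotientGroup.mk_mul, QuotientGroup.mk_inv]
      simp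
    · intro x _
      exact (blockCoeff_isClassFunction B x a).symm
  have hom : ∀ φ : IrrCharacter (G ⧸ N), omega (φ : G ⧸ N → ℂ) f = indic A φ := by
    intro φ
    have e : omega (φ : G ⧸ N → ℂ) f = omega (infl φ : G → ℂ) (blockCoeff B) := by
      rw [omega, omega]
      congr 1
      rw [← Finset.sum_fiberwise_of_maps_to (s := Finset.univ) (t := Finset.univ)
        (g := fun x : G => (x : G ⧸ N)) (fun _ _ => Finset.mem_univ _)
        (fun x => blockCoeff B x * (infl φ : G → ℂ) x)]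
      refine Finset.sum_congr rfl fun q _ => ?_
      simp only [hf, Finset.sum_mul]
      refine Finset.sum_congr rfl fun x hx => ?_
      simp only [Finset.mem_filter] at hx
      simp [infl, hx.2]
    rw [e, omega_blockCoeff]
    by_cases h : infl φ ∈ B
    · rw [indic_of_mem h, indic_of_mem (show φ ∈ A from h)]
    · rw [indic_of_notMem h, indic_of_notMem (show φ ∉ A from h)]
  have hfA : f (g : G ⧸ N) = blockCoeff A (g : G ⧸ N) := by
    rw [blockCoeff_eq_coeffFun, ← show (fun φ : IrrCharacter (G ⧸ N) => omega (φ : G ⧸ N → ℂ) f)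
      = indic A from funext hom, coeffFun_omega hfc]
  have hfg : f (g : G ⧸ N) = blockCoeff B g := by
    refine Finset.sum_eq_single_of_mem g (by simp) fun x hx hne => ?_
    simp only [Finset.mem_filter] at hx
    refine blockCoeff_eq_zero_of_singular hM hB ?_
    by_contra hxr
    have hu : g⁻¹ * x ∈ N := QuotientGroup.eq.mp hx.2.symm
    set u := g⁻¹ * x with hudef
    have hgu : Commute g u := (Subgroup.mem_centralizer_iff.mp hgN u hu).symm
    obtain ⟨k, hk⟩ := IsPGroup.iff_orderOf.mp hN ⟨u, hu⟩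
    rw [Subgroup.orderOf_mk] at hk
    have hco : Nat.Coprime (orderOf g) (orderOf u) := by
      rw [hk]
      exact Nat.Coprime.pow_right _ (hM.1.coprime_iff_not_dvd.mpr hreg).symm
    have hxo := hgu.orderOf_mul_eq_mul_orderOf_of_coprime hco
    rw [show g * u = x by rw [hudef, mul_inv_cancel_left]] at hxo
    rcases Nat.eq_zero_or_pos k with rfl | hk0
    · rw [pow_zero, orderOf_eq_one_iff] at hk
      exact hne (by rw [hudef, inv_mul_eq_one] at hk; exact hk.symm)
    · exact hxr (hxo ▸ Dvd.dvd.mul_left (hk ▸ dvd_pow_self p hk0.ne') _)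
  have hAcl : ∀ φ ∈ A, blockOf M (φ : G ⧸ N → ℂ) ⊆ A := fun φ hφ ψ hψ =>
    IsPBlock.mem_of_sameBlock hM hB hφ (sameBlock_inflate hM N hψ)
  obtain ⟨φ, hφA, hunit⟩ : ∃ φ ∈ A,
      ¬ MemLocalIdeal M (blockCoeff (blockOf M (φ : G ⧸ N → ℂ)) (g : G ⧸ N)) := by
    by_contra hno
    push Not at hno
    apply hg.2.1
    rw [← hfg, hfA, blockCoeff_eq_sum,
      ← Finset.sum_fiberwise_of_maps_to (s := Finset.univ.filter (· ∈ A))
        (t := (Finset.univ.filter (· ∈ A)).image
          fun φ : IrrCharacter (G ⧸ N) => blockOf M (φ : G ⧸ N → ℂ))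
        (g := fun φ : IrrCharacter (G ⧸ N) => blockOf M (φ : G ⧸ N → ℂ))
        (fun φ hφ => Finset.mem_image_of_mem _ hφ), Finset.mul_sum]
    refine mli_sum hM _ fun C hC => ?_
    obtain ⟨φ, hφ, rfl⟩ := Finset.mem_image.mp hC
    have hφA : φ ∈ A := (Finset.mem_filter.mp hφ).2
    have key := hno φ hφA
    rw [blockCoeff_eq_sum] at key
    convert key using 3
    ext ψ
    simp only [Finset.mem_filter, Finset.mem_univ, true_and]
    exact ⟨fun h => h.2 ▸ self_mem_blockOf hM ψ, fun h =>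
      ⟨hAcl φ hφA h, (blockOf_eq_of_sameBlock hM h).symm⟩⟩
  set Bbar := blockOf M (φ : G ⧸ N → ℂ) with hBbdef
  have hBb : IsPBlock M Bbar := isPBlock_blockOf φ
  have hsub : ∀ χ ∈ Bbar, ∀ ψ : IrrCharacter G,
      (ψ : G → ℂ) = (χ : G ⧸ N → ℂ) ∘ QuotientGroup.mk → ψ ∈ B := fun χ hχ ψ hψ => by
    rw [show ψ = infl χ from Subtype.ext hψ]
    exact hAcl φ hφA hχ
  have hcls : IsDefectClass M Bbar (g : G ⧸ N) := by
    refine ⟨mlr_blockCoeff hM hBb _, hunit, fun χ hχ h => ?_⟩
    refine hg.2.2 (infl χ) (hAcl φ hφA hχ) ?_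
    show MemLocalIdeal M (centralChar ((χ : G ⧸ N → ℂ) ∘ QuotientGroup.mk) g)
    rwa [centralChar_inflate, hone, Nat.cast_one, one_mul]
  obtain ⟨P⟩ : Nonempty (Sylow p (Subgroup.centralizer ({g} : Set G))) := inferInstance
  obtain ⟨S, hS⟩ := exists_sylow_image N P (by rw [hone]; exact hM.1.not_dvd_one)
  have hD : IsDefectGroup p M Bbar (((P : Subgroup (Subgroup.centralizer ({g} : Set G))).map
      (Subgroup.centralizer ({g} : Set G)).subtype).map (QuotientGroup.mk' N)) :=
    ⟨_, hcls, S, hS.symm⟩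
  refine ⟨Bbar, hBb, hsub, fun Dbar => ⟨fun hDb => ?_, ?_⟩⟩
  · obtain ⟨z, rfl⟩ := defectGroup_conj hM hBb hD hDb
    obtain ⟨a, rfl⟩ := QuotientGroup.mk_surjective z
    exact ⟨_, isDefectGroup_map_conj hM ⟨g, hg, P, rfl⟩ a, (map_conj_mk N _ a).symm⟩
  · rintro ⟨P', hP', rfl⟩
    obtain ⟨a, rfl⟩ := defectGroup_conj hM hB ⟨g, hg, P, rfl⟩ hP'
    rw [map_conj_mk]
    exact isDefectGroup_map_conj hM hD _

end CfsgLib.Blocks
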