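import Cfsg.Agent.Lib.Blocks.InertialQuotient
import Cfsg.Agent.Lib.Blocks.QuotientDefect
import Cfsg.Agent.Lib.Blocks.CentralDefect
import Cfsg.Agent.Lib.Blocks.HeightZero
import Cfsg.Agent.Lib.Blocks.PCBlocks

/-!
The characterization of maximal pairs.
-/

namespace CfsgLib.Blocks

set_option linter.style.haveILetI false

open scoped ComplexConjugate
open Cfsg CfsgLib.Chars

universe u

variable {G : Type u} [Group G] [Fintype G] {p : ℕ} {M : Ideal AlgInt}

/-- A character of maximal `p`-degree over a central `p`-subgroup has it as defect group. -/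
theorem central_defectGroup (hM : IsPModular p M) {D : Subgroup G} (hD : IsPGroup p D)
    (hDZ : D ≤ Subgroup.center G) {B : Set (IrrCharacter G)} (hB : IsPBlock M B) {χ : IrrCharacter G}
    (hχ : χ ∈ B) (hdeg : (charDegree (χ : G → ℂ)).factorization p = D.index.factorization p) :
    IsDefectGroup p M B D := by
  classical
  haveI : Fact p.Prime := ⟨hM.1⟩
  obtain ⟨φ, hφ, h0⟩ := exists_height_zero hM hB
  have hne : regMat hM.1 χ φ ≠ 0 := fun h =>
    regMat_not_dvd hM hB hφ h0 hχ (h.symm ▸ dvd_zero _)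
  obtain ⟨-, hdφ, -⟩ := linked_of_max hM hD hDZ hdeg hne
  obtain ⟨E, hE⟩ := exists_isDefectGroup hM hB
  haveI : D.Normal := ⟨fun d hd y => by
    rw [Subgroup.mem_center_iff.mp (hDZ hd) y, mul_inv_cancel_right]; exact hd⟩
  have hDE := normal_pGroup_le_defectGroup hM D hD hB hE
  obtain ⟨d, hd⟩ := IsPGroup.iff_card.mp hD
  have hdef : blockDefect p B = d := by
    have h1 := minExp_add_defect (p := p) hφ
    have h2 := minExp_add_height (p := p) hφ
    rw [h0, hdφ, hdeg] at h2
    rw [← D.index_mul_card, Nat.factorization_mul D.index_ne_zero_of_finite Nat.card_pos.ne',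
      Finsupp.add_apply, hd, hM.1.factorization_pow, Finsupp.single_eq_same] at h1
    omega
  have hcard := card_defectGroup hM hB hE
  rw [hdef, ← hd] at hcard
  rwa [Subgroup.eq_of_le_of_card_ge hDE hcard.le]

/-- A block with a normal defect group `N` has a character trivial on `N` of degree as divisible
by `p` as the index of `N`. -/
theorem exists_char_full (hM : IsPModular p M) (N : Subgroup G) [N.Normal]
    {B : Set (IrrCharacter G)} (hB : IsPBlock M B) (hN : IsDefectGroup p M B N) :
    ∃ ψ ∈ B, (∀ z ∈ N, (ψ : G → ℂ) z = (ψ : G → ℂ) 1) ∧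
      (charDegree (ψ : G → ℂ)).factorization p = N.index.factorization p := by
  classical
  haveI : Fact p.Prime := ⟨hM.1⟩
  haveI : Fintype (G ⧸ N) := Fintype.ofFinite _
  obtain ⟨Bbar, hBbar, hsub, hdef⟩ := exists_block_quotient_defect hM N (defectGroup_isPGroup hN) hB
  have hbot : IsDefectGroup p M Bbar ⊥ :=
    (hdef ⊥).mpr ⟨N, hN, (QuotientGroup.map_mk'_self N).symm⟩
  have h0 : blockDefect p Bbar = 0 := by
    have := card_defectGroup hM hBbar hbot
    rw [Subgroup.card_bot, eq_comm, Nat.pow_eq_one] at this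
    exact this.resolve_left hM.1.ne_one
  obtain ⟨χ, hχ⟩ := IsPBlock.nonempty hM hBbar
  refine ⟨⟨_, isIrrCharacter_inflate N χ⟩, hsub χ hχ _ rfl, fun z hz => ?_, ?_⟩
  · show (χ : G ⧸ N → ℂ) (z : G ⧸ N) = (χ : G ⧸ N → ℂ) ((1 : G) : G ⧸ N)
    rw [(QuotientGroup.eq_one_iff z).mpr hz, QuotientGroup.mk_one]
  · have h1 := (ppow_dvd_iff hM.1 χ).mp ((blockDefect_eq_zero_iff hM hBbar).mp h0 χ hχ)
    rw [Subgroup.index_eq_card, ← h1]
    rfl

/-- The block of a maximal pair has defect group the centre of its subgroup. -/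
theorem maximal_local_defect (hM : IsPModular p M) {B : Set (IrrCharacter G)} {P : Subgroup G}
    {e : Set (IrrCharacter (Subgroup.centralizer (P : Set G)))}
    (hmax : IsMaximalBrauerPair p M B P e) :
    IsDefectGroup p M e ((P ⊓ Subgroup.centralizer (P : Set G)).subgroupOf
      (Subgroup.centralizer (P : Set G))) := by
  classical
  haveI : Fact p.Prime := ⟨hM.1⟩
  obtain ⟨hP, he⟩ := hmax.1.1
  set Z := (P ⊓ Subgroup.centralizer (P : Set G)).subgroupOf (Subgroup.centralizer (P : Set G)) with hZ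
  haveI : Z.Normal := ⟨fun z hz y => by
    have : y * z = z * y := Subtype.ext
      (Subgroup.mem_centralizer_iff.mp y.2 (z : G) hz.1).symm
    rwa [this, mul_inv_cancel_right]⟩
  have hZp : IsPGroup p Z :=
    (hP.to_le inf_le_left).of_equiv (Subgroup.subgroupOfEquivOfLe inf_le_right).symm
  obtain ⟨D, hD⟩ := exists_isDefectGroup hM he
  have hge := normal_pGroup_le_defectGroup hM Z hZp he hD
  obtain ⟨c, hc, T, hT⟩ := id hD
  set DG := D.map (Subgroup.centralizer (P : Set G)).subtype with hDG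
  have hRN : P ⊔ DG ≤ Subgroup.normalizer (P : Set G) :=
    sup_le Subgroup.le_normalizer
      ((Subgroup.map_subtype_le _).trans (Subgroup.centralizer_le_normalizer (P : Set G)))
  have hRp : IsPGroup p (P ⊔ DG : Subgroup G) :=
    hP.to_sup_of_normal_left' ((defectGroup_isPGroup hD).map _)
      ((Subgroup.map_subtype_le _).trans (Subgroup.centralizer_le_normalizer (P : Set G)))
  have hst : ∀ x ∈ P ⊔ DG, StabilizesBlock (Subgroup.centralizer (P : Set G)) e x := fun x hx =>
    ((sup_le (le_pairStab hM he) ((Subgroup.map_subtype_le _).trans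
      (centralizer_le_pairStab hM he)) : P ⊔ DG ≤ pairStab hM he) hx).2
  have hcC : (c : G) ∈ Subgroup.centralizer ((P ⊔ DG : Subgroup G) : Set G) := by
    refine Subgroup.le_centralizer_iff.mp (sup_le ?_ ?_) (Subgroup.mem_zpowers (c : G))
    · intro q hq
      rw [Subgroup.mem_centralizer_iff]
      rintro _ ⟨k, rfl⟩
      exact ((show Commute q (c : G) from Subgroup.mem_centralizer_iff.mp c.2 q hq).zpow_right k).symm
    · rintro _ ⟨d, hd, rfl⟩
      rw [Subgroup.mem_centralizer_iff]
      rintro _ ⟨k, rfl⟩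
      have hdc : d * c = c * d := Subgroup.mem_centralizer_singleton_iff.mp
        ((hT ▸ Subgroup.map_subtype_le _ : D ≤ _) hd)
      exact ((show Commute (d : G) (c : G) from congrArg Subtype.val hdc).zpow_right k).symm
  obtain ⟨g, hg⟩ := exists_pair_above_of_unit hM he hRp le_sup_left hRN hst hcC
    (by rw [sbc_apply]; exact hc.2.1)
  have hR := hmax.2 _ g ((brauerPairOf_iff_normal hM hg hmax.1.2.1).mpr hmax.1)
    (Relation.ReflTransGen.single hg)
  have : D = Z := le_antisymm (fun d hd =>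
    ⟨hR.le ((le_sup_right : DG ≤ P ⊔ DG) ⟨d, hd, rfl⟩), d.2⟩) hge
  rwa [← this]

/-- Which pairs are maximal. -/
theorem maximal_criterion (hM : IsPModular p M) {Q : Subgroup G}
    {e : Set (IrrCharacter (Subgroup.centralizer (Q : Set G)))} (he : IsBrauerPair p M Q e) :
    (∃ B : Set (IrrCharacter G), IsMaximalBrauerPair p M B Q e) ↔
      ∃ θ ∈ e, (∀ z : Subgroup.centralizer (Q : Set G), (z : G) ∈ Q →
          (θ : Subgroup.centralizer (Q : Set G) → ℂ) z = (θ : Subgroup.centralizer (Q : Set G) → ℂ) 1) ∧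
        (charDegree (θ : Subgroup.centralizer (Q : Set G) → ℂ)).factorization p +
          (Nat.card ↥(Q ⊓ Subgroup.centralizer (Q : Set G))).factorization p =
            (Nat.card (Subgroup.centralizer (Q : Set G))).factorization p ∧
        (∀ g : G, g ∈ Subgroup.normalizer (Q : Set G) →
          StabilizesBlock (Subgroup.centralizer (Q : Set G)) e g → (∃ k : ℕ, orderOf g = p ^ k) →
            g ∈ Q ⊔ Subgroup.centralizer (Q : Set G)) := by
  classical
  haveI : Fact p.Prime := ⟨hM.1⟩
  obtain ⟨hQ, heb⟩ := he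
  set Z := (Q ⊓ Subgroup.centralizer (Q : Set G)).subgroupOf (Subgroup.centralizer (Q : Set G)) with hZ
  haveI : Z.Normal := ⟨fun z hz y => by
    have : y * z = z * y := Subtype.ext
      (Subgroup.mem_centralizer_iff.mp y.2 (z : G) hz.1).symm
    rwa [this, mul_inv_cancel_right]⟩
  have hcardZ : Nat.card Z = Nat.card ↥(Q ⊓ Subgroup.centralizer (Q : Set G)) :=
    Nat.card_congr (Subgroup.subgroupOfEquivOfLe inf_le_right).toEquiv
  have hdeg : ∀ n : ℕ, n + (Nat.card ↥(Q ⊓ Subgroup.centralizer (Q : Set G))).factorization p =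
      (Nat.card (Subgroup.centralizer (Q : Set G))).factorization p ↔
      n = Z.index.factorization p := fun n => by
    rw [← Z.index_mul_card, Nat.factorization_mul Z.index_ne_zero_of_finite Nat.card_pos.ne',
      Finsupp.add_apply, hcardZ]
    omega
  constructor
  · rintro ⟨B, hmax⟩
    obtain ⟨θ, hθ, hker, hd⟩ := exists_char_full hM Z heb (maximal_local_defect hM hmax)
    exact ⟨θ, hθ, fun z hz => hker z ⟨hz, z.2⟩, (hdeg _).mpr hd,
      fun g hgN hge hgp => maximal_pElement_mem hM hmax hgN hge hgp⟩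
  · rintro ⟨θ, hθ, -, hd, hp'⟩
    have hZp : IsPGroup p Z :=
      (hQ.to_le inf_le_left).of_equiv (Subgroup.subgroupOfEquivOfLe inf_le_right).symm
    have hdef : IsDefectGroup p M e Z := central_defectGroup hM hZp (fun z hz => by
      refine Subgroup.mem_center_iff.mpr fun y => Subtype.ext ?_
      exact (Subgroup.mem_centralizer_iff.mp y.2 (z : G) hz.1).symm) heb hθ ((hdeg _).mp hd)
    -- a block containing the pair
    set H := Q ⊔ Subgroup.centralizer (Q : Set G) with hH
    haveI : Fintype H := Fintype.ofFinite _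
    obtain ⟨b, hb, hcoef⟩ := exists_pc_block hM hQ hH heb
    obtain ⟨ξ₀, hξ₀⟩ := IsPBlock.nonempty hM hb
    have hN : H ≤ Subgroup.normalizer (Q : Set G) := pc_le_normalizer Q
    obtain ⟨B, hB, hne⟩ := exists_block_brVal hM hN ξ₀
    have hpair : IsBrauerPairOf p M B Q e := (pc_induced_iff hM hQ hH heb hb hcoef hB).mp
      ((isInducedBlock_iff_brVal hM hQ le_sup_left le_sup_right hN hb hB hξ₀).mpr hne)
    refine ⟨B, hpair, fun R g hg hle => ?_⟩
    by_contra hneq
    obtain ⟨R', g', hlt, hstep, -⟩ := SubpairLE.first_step hM hle (Ne.symm hneq)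
    obtain ⟨z, hzC, hz⟩ := exists_unit_of_normalSubpair hM hstep
    have hzK : z ∈ Subgroup.centralizer (Q : Set G) := Subgroup.centralizer_le hlt.le hzC
    have hR'H : R' ≤ H := fun y hy => by
      obtain ⟨k, hk⟩ := IsPGroup.iff_orderOf.mp hstep.2.1.1 ⟨y, hy⟩
      exact hp' y (hstep.2.2.2.1 hy) (hstep.2.2.2.2.1 y hy)
        ⟨k, by rw [← hk, ← Subgroup.orderOf_coe]⟩
    obtain ⟨x, hx⟩ := pGroup_le_defectGroup hM heb hdef (h := ⟨z, hzK⟩)
      (by rwa [← sbc_apply])
      (Q := (R' ⊓ Subgroup.centralizer (Q : Set G)).subgroupOf (Subgroup.centralizer (Q : Set G)))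
      ((hstep.2.1.1.to_le inf_le_left).of_equiv (Subgroup.subgroupOfEquivOfLe inf_le_right).symm)
      (fun r hr => Subgroup.mem_centralizer_singleton_iff.mpr
        (Subtype.ext (Subgroup.mem_centralizer_iff.mp hzC (r : G) hr.1)))
    have h1 := Subgroup.card_le_of_le hx
    rw [card_map_conj, Nat.card_congr (Subgroup.subgroupOfEquivOfLe inf_le_right).toEquiv, hcardZ] at h1
    have h2 := Subgroup.eq_of_le_of_card_ge
      (inf_le_inf_right (Subgroup.centralizer (Q : Set G)) hlt.le) h1
    refine hlt.not_ge fun y hy => ?_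
    have hyH := hR'H hy
    rw [hH, ← SetLike.mem_coe, Subgroup.coe_mul_of_left_le_normalizer_right _ _
      (fun w hw => mem_normalizer_centralizer (Subgroup.le_normalizer hw))] at hyH
    obtain ⟨q, hq, c, hc, rfl⟩ := hyH
    have hcR : c ∈ R' := by
      have := mul_mem (inv_mem (hlt.le hq)) hy
      rwa [inv_mul_cancel_left] at this
    exact mul_mem hq (h2.ge ⟨hcR, hc⟩).1

end CfsgLib.Blocks
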