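import Cfsg.Agent.Lib.Chars.Misc
import Cfsg.Agent.Lib.Blocks.Core
import Mathlib.RingTheory.Valuation.LocalSubring
import Mathlib.GroupTheory.PGroup
import Mathlib.Algebra.CharP.Lemmas
import Mathlib.GroupTheory.GroupAction.Quotient
import Mathlib.GroupTheory.Sylow
import Mathlib.LinearAlgebra.Dimension.Finrank

/-!
Representations of dimension below the order of a trivial intersection Sylow subgroup have no
nonzero vectors fixed by a subgroup containing its normalizer.
-/

set_option linter.style.haveILetI false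

namespace CfsgLib.Blocks.TIFix

open scoped ComplexConjugate Pointwise
open Cfsg CfsgLib.Chars CfsgLib.Blocks

universe u

/-- A valuation subring of `ℂ` in which `p` is not a unit. -/
theorem exists_valuation {p : ℕ} (hp : p.Prime) :
    ∃ V : ValuationSubring ℂ, V.valuation (p : ℂ) < 1 := by
  obtain ⟨M, hM⟩ := exists_isPModular hp
  obtain ⟨V, -, hV⟩ := Ideal.image_subset_nonunits_valuationSubring (A := AlgInt.toSubring)
    M hM.2.1.ne_top
  exact ⟨V, hV ⟨_, hM.2.2, by simp⟩⟩

section

variable {p : ℕ} [Fact p.Prime] (V : ValuationSubring ℂ)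

/-- The group algebra of a `p`-group in characteristic `p`: some multiple of a nonzero element is
the sum of all elements. -/
theorem exists_sum_eq_one {P : Type u} [Group P] [Fintype P] (hP : IsPGroup p P) {k : Type*}
    [Field k] [CharP k p] (b : P → k) (hb : b ≠ 0) :
    ∃ n : P → k, ∀ r, ∑ t, n t * b (t⁻¹ * r) = 1 := by
  classical
  let ψ : (P → ZMod p) →+ (P → k) :=
    { toFun := fun n r => ∑ t, (ZMod.castHom dvd_rfl k (n t)) * b (t⁻¹ * r)
      map_zero' := by funext r; simp
      map_add' := fun n n' => by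
        funext r; simp [add_mul, Finset.sum_add_distrib] }
  set S := ψ.range
  haveI : Finite S := Finite.of_surjective ψ.rangeRestrict ψ.rangeRestrict_surjective
  have hψ : ∀ (n : P → ZMod p) (s r : P), ψ n (s⁻¹ * r) = ψ (fun t => n (s⁻¹ * t)) r := by
    intro n s r
    refine Fintype.sum_equiv (Equiv.mulLeft s) _ _ fun t => ?_
    simp [mul_assoc]
  have hclosed : ∀ (s : P), ∀ f ∈ S, (fun r => f (s⁻¹ * r)) ∈ S := by
    rintro s _ ⟨n, rfl⟩
    exact ⟨fun t => n (s⁻¹ * t), funext fun r => (hψ n s r).symm⟩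
  letI : MulAction P S :=
    { smul := fun s f => ⟨fun r => f.1 (s⁻¹ * r), hclosed s f.1 f.2⟩
      one_smul := fun f => Subtype.ext (funext fun r => by
        show f.1 (1⁻¹ * r) = f.1 r
        simp)
      mul_smul := fun s s' f => Subtype.ext (funext fun r => by
        show f.1 ((s * s')⁻¹ * r) = f.1 (s'⁻¹ * (s⁻¹ * r))
        simp [mul_assoc]) }
  have hbS : b ∈ S := by
    refine ⟨Pi.single 1 1, funext fun r => ?_⟩
    show ∑ t, (ZMod.castHom dvd_rfl k ((Pi.single (1 : P) (1 : ZMod p) : P → ZMod p) t)) *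
      b (t⁻¹ * r) = b r
    rw [Finset.sum_eq_single (1 : P)]
    · simp
    · intro t _ ht; simp [Pi.single_eq_of_ne ht]
    · simp
  have hcard : p ∣ Nat.card S := by
    have h0 : (⟨b, hbS⟩ : S) ≠ 0 := fun e => hb (congrArg Subtype.val e)
    rw [← addOrderOf_eq_prime (x := (⟨b, hbS⟩ : S)) (p := p) (Subtype.ext (funext fun r => by
      simp)) h0]
    exact addOrderOf_dvd_natCard _
  obtain ⟨e, he, hne⟩ := hP.exists_fixed_point_of_prime_dvd_card_of_fixed_point S hcard
    (a := 0) (fun s => Subtype.ext (funext fun r => rfl))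
  obtain ⟨m, hm⟩ := e.2
  have hconst : ∀ r, e.1 r = e.1 1 := by
    intro r
    have := congrFun (congrArg Subtype.val (he r)) r
    change e.1 (r⁻¹ * r) = e.1 r at this
    rw [inv_mul_cancel] at this
    exact this.symm
  have hc : e.1 1 ≠ 0 := fun h0 => hne (Subtype.ext (funext fun r => by
    rw [hconst r, h0]; rfl))
  refine ⟨fun t => (e.1 1)⁻¹ * ZMod.castHom dvd_rfl k (m t), fun r => ?_⟩
  simp only [mul_assoc, ← Finset.mul_sum]
  rw [show ∑ t, (ZMod.castHom dvd_rfl k (m t)) * b (t⁻¹ * r) = e.1 r from congrFun hm r, hconst r,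
    inv_mul_cancel₀ hc]

variable {G : Type u} [Group G] [Fintype G]

set_option maxHeartbeats 1000000 in
/-- A vector which is a `P`-trace inside its own lattice vanishes, in dimension below `|P|`. -/
theorem trace_eq_zero (hV : V.valuation (p : ℂ) < 1) (P : Subgroup G) [Fintype P] (hP : IsPGroup p P)
    {n : ℕ} (hn : n < Nat.card P) (ρ : Representation ℂ G (Fin n → ℂ)) (v : Fin n → ℂ)
    (c : G → ℂ) (hc : ∀ g, V.valuation (c g) ≤ 1)
    (hv : v = ∑ q : P, ρ (q : G) (∑ g, c g • ρ g v)) : v = 0 := by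
  classical
  set u := ∑ g, c g • ρ g v with hu
  have hdep : ¬ LinearIndependent ℂ (fun q : P => ρ (q : G) u) := by
    intro h
    have := h.fintype_card_le_finrank
    rw [Module.finrank_fin_fun, ← Nat.card_eq_fintype_card] at this
    omega
  obtain ⟨a, ha, q₁, hq₁⟩ := Fintype.not_linearIndependent_iff.mp hdep
  obtain ⟨q₀, -, hmax⟩ := Finset.exists_max_image Finset.univ (fun q => V.valuation (a q))
    ⟨1, Finset.mem_univ _⟩
  have ha0 : a q₀ ≠ 0 := fun h0 => by
    have := hmax q₁ (Finset.mem_univ _)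
    rw [h0, map_zero, le_zero_iff, map_eq_zero] at this
    exact hq₁ this
  have hb1 : ∀ q, a q / a q₀ ∈ V := fun q => by
    rw [← V.valuation_le_one_iff, map_div₀, div_le_one₀ (zero_lt_iff.mpr ((map_ne_zero _).mpr ha0))]
    exact hmax q (Finset.mem_univ _)
  set b : P → V := fun q => ⟨a q / a q₀, hb1 q⟩
  have hbu : ∑ q : P, (b q : ℂ) • ρ (q : G) u = 0 := by
    simp only [b, div_eq_inv_mul, mul_smul, ← Finset.smul_sum, ha, smul_zero]
  haveI : CharP (IsLocalRing.ResidueField V) p := by
    rw [CharP.charP_iff_prime_eq_zero (Fact.out : p.Prime),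
      ← map_natCast (IsLocalRing.residue V), IsLocalRing.residue_eq_zero_iff,
      V.valuation_lt_one_iff]
    simpa using hV
  obtain ⟨nt, hnt⟩ := exists_sum_eq_one (p := p) hP (fun q => IsLocalRing.residue V (b q)) (by
    intro h
    have := congrFun h q₀
    rw [show b q₀ = 1 from Subtype.ext (div_self ha0), map_one] at this
    exact one_ne_zero this)
  choose d hd using fun t => IsLocalRing.residue_surjective (nt t)
  set h : P → V := fun r => ∑ t, d t * b (t⁻¹ * r) - 1
  have hh : ∀ r, V.valuation (h r : ℂ) < 1 := by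
    intro r
    rw [← V.valuation_lt_one_iff, ← IsLocalRing.residue_eq_zero_iff]
    simp only [h, map_sub, map_sum, map_mul, hd, map_one]
    rw [hnt r, sub_self]
  have hzero : ∑ r : P, ((1 : ℂ) + (h r : ℂ)) • ρ (r : G) u = 0 := by
    have e1 : ∀ t : P, ∑ r : P, ((d t : ℂ) * (b (t⁻¹ * r) : ℂ)) • ρ (r : G) u = 0 := by
      intro t
      simp only [mul_smul, ← Finset.smul_sum]
      suffices hs : ∑ r : P, (b (t⁻¹ * r) : ℂ) • ρ (r : G) u = 0 by rw [hs, smul_zero]
      have e := congrArg (ρ (t : G)) hbu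
      rw [map_sum, map_zero] at e
      rw [← e]
      symm
      refine Fintype.sum_equiv (Equiv.mulLeft t) _ _ fun s => ?_
      simp [map_smul]
    have e2 := Finset.sum_congr rfl fun t (_ : t ∈ Finset.univ) => e1 t
    rw [Finset.sum_comm, Finset.sum_const_zero] at e2
    rw [← e2]
    refine Finset.sum_congr rfl fun r _ => ?_
    rw [← Finset.sum_smul]
    simp [h]
  -- the vector lies in the ideal multiple of its lattice
  set e : G → ℂ := fun x => -∑ r : P, (h r : ℂ) * c ((r : G)⁻¹ * x)
  have hev : ∀ x, V.valuation (e x) < 1 := by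
    intro x
    simp only [e, Valuation.map_neg]
    refine Valuation.map_sum_lt _ one_ne_zero fun r _ => ?_
    rw [map_mul]
    exact (mul_le_of_le_one_right' (hc _)).trans_lt (hh r)
  have hfix : v = ∑ x, e x • ρ x v := by
    have e3 : v = -∑ r : P, (h r : ℂ) • ρ (r : G) u := by
      rw [eq_neg_iff_add_eq_zero, hv, ← Finset.sum_add_distrib]
      refine Eq.trans (Finset.sum_congr rfl fun r _ => ?_) hzero
      rw [add_smul, one_smul]
    conv_lhs => rw [e3]
    simp only [e, neg_smul, Finset.sum_neg_distrib, Finset.sum_smul]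
    rw [Finset.sum_comm (s := (Finset.univ : Finset G))]
    congr 1
    refine Finset.sum_congr rfl fun r _ => ?_
    rw [hu, map_sum, Finset.smul_sum]
    refine Fintype.sum_equiv (Equiv.mulLeft (r : G)) _ _ fun g => ?_
    simp [map_smul, smul_smul]
  by_contra hv0
  obtain ⟨i, hi⟩ := Function.ne_iff.mp hv0
  obtain ⟨x₀, -, hx₀⟩ := Finset.exists_max_image Finset.univ (fun x => V.valuation ((ρ x v) i))
    ⟨1, Finset.mem_univ _⟩
  have hne : V.valuation ((ρ x₀ v) i) ≠ 0 := fun h0 => by
    have := hx₀ 1 (Finset.mem_univ _)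
    rw [h0, le_zero_iff, map_eq_zero, map_one] at this
    exact hi this
  have e4 : (ρ x₀ v) i = ∑ x, e x * (ρ (x₀ * x) v) i := by
    conv_lhs => rw [hfix]
    rw [map_sum, Finset.sum_apply]
    refine Finset.sum_congr rfl fun x _ => ?_
    rw [map_smul, map_mul, Pi.smul_apply, smul_eq_mul]
    rfl
  refine (lt_irrefl (V.valuation ((ρ x₀ v) i))) ?_
  conv_lhs => rw [e4]
  refine Valuation.map_sum_lt _ hne fun x _ => ?_
  rw [map_mul]
  exact (mul_le_mul' le_rfl (hx₀ _ (Finset.mem_univ _))).trans_lt
    (mul_lt_of_lt_one_left (zero_lt_iff.mpr hne) (hev x))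

end

variable {G : Type u} [Group G] [Fintype G] {p : ℕ} [Fact p.Prime]

open Classical in
/-- Small nontrivial irreducible characters have no trivial constituent on such a subgroup. -/
theorem classInner_res_eq_zero (P : Sylow p G)
    (hTI : ∀ g : G, g ∉ Subgroup.normalizer ((P : Subgroup G) : Set G) →
      (P : Subgroup G) ⊓ (MulAut.conj g • (P : Subgroup G)) = ⊥)
    (H : Subgroup G) [Fintype H] (hH : Subgroup.normalizer ((P : Subgroup G) : Set G) ≤ H)
    (η : IrrCharacter G) (hne : η ≠ trivIrr G)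
    (hdeg : charDegree (η : G → ℂ) < Nat.card (P : Subgroup G)) :
    classInner (fun h : H => (η : G → ℂ) h) (fun _ => 1) = 0 := by
  classical
  obtain ⟨V, hV⟩ := exists_valuation (Fact.out : p.Prime)
  haveI : Fintype (P : Subgroup G) := Fintype.ofFinite _
  obtain ⟨n, ρ, hρ, hc⟩ := η.2
  have hn : n = charDegree (η : G → ℂ) := by
    rw [← hc]; simp [charDegree, Representation.char_one]
  by_contra hmult
  -- a fixed vector
  set E : (Fin n → ℂ) →ₗ[ℂ] (Fin n → ℂ) := ∑ h : H, ρ (h : G) with hE
  have hE0 : E ≠ 0 := by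
    intro h0
    apply hmult
    have h1 : LinearMap.trace ℂ _ E = ∑ h : H, (η : G → ℂ) h := by
      rw [hE, map_sum, ← hc]; rfl
    rw [h0, map_zero] at h1
    simp only [classInner, map_one, mul_one]
    rw [← h1, mul_zero]
  obtain ⟨w, hw⟩ : ∃ w, E w ≠ 0 := by
    by_contra h
    push Not at h
    exact hE0 (LinearMap.ext fun w => by simpa using h w)
  set v := E w
  have hHv : ∀ h ∈ H, ρ h v = v := by
    intro h hh
    simp only [v, hE, LinearMap.sum_apply, map_sum]
    refine Fintype.sum_equiv (Equiv.mulLeft ⟨h, hh⟩) _ _ fun k => ?_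
    simp
  -- the sum over all cosets vanishes
  haveI : Fintype (G ⧸ H) := Fintype.ofFinite _
  set F : G ⧸ H → (Fin n → ℂ) := fun c => ρ c.out v
  have hFmk : ∀ g : G, F (g : G ⧸ H) = ρ g v := by
    intro g
    obtain ⟨h, hh⟩ := QuotientGroup.mk_out_eq_mul H g
    simp only [F, hh, map_mul]
    exact congrArg (ρ g) (hHv h h.2)
  have hsum : ∑ c, F c = 0 := by
    have h1 : ∑ g : G, ρ g v = 0 := by
      have h2 := repSum_eq_smul ρ hρ (f := fun _ : G => (1 : ℂ)) (fun _ _ => rfl)
      have h3 : ∑ g : G, (η : G → ℂ) g = 0 := by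
        have := sum_mul_conj_irr η (trivIrr G)
        rw [if_neg hne] at this
        simpa [trivIrr] using this
      rw [hc] at h2
      simp only [one_mul, h3, zero_div, zero_smul] at h2
      have := LinearMap.congr_fun h2 v
      simpa [repSum_apply] using this
    have h4 : ∑ g : G, ρ g v = (Nat.card H : ℂ) • ∑ c, F c := by
      rw [← Finset.sum_fiberwise_of_maps_to (s := Finset.univ) (t := Finset.univ)
        (g := fun g : G => (g : G ⧸ H)) (fun _ _ => Finset.mem_univ _), Finset.smul_sum]
      refine Finset.sum_congr rfl fun c _ => ?_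
      rw [Finset.sum_congr rfl fun g hg => by
        rw [← hFmk g, (Finset.mem_filter.mp hg).2], Finset.sum_const, ← Nat.cast_smul_eq_nsmul ℂ]
      congr 2
      rw [← Fintype.card_subtype, ← Nat.card_eq_fintype_card]
      obtain ⟨g, rfl⟩ := QuotientGroup.mk_surjective c
      refine Nat.card_congr ((Equiv.mulLeft g⁻¹).subtypeEquiv fun x => ?_)
      rw [Equiv.coe_mulLeft, eq_comm, QuotientGroup.eq]
    rw [h1] at h4
    exact (smul_eq_zero.mp h4.symm).resolve_left (natCast_card_ne_zero H)
  -- free action away from the trivial coset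
  set o : G ⧸ H := ((1 : G) : G ⧸ H)
  have hfix : ∀ a : (P : Subgroup G), a • o = o := fun a => by
    change (((a : G) * 1 : G) : G ⧸ H) = ((1 : G) : G ⧸ H)
    rw [mul_one, QuotientGroup.eq]
    simpa using hH (Subgroup.le_normalizer a.2)
  have hfree : ∀ (a : (P : Subgroup G)) (c : G ⧸ H), c ≠ o → a • c = c → a = 1 := by
    intro a c hc hac
    obtain ⟨g, rfl⟩ := QuotientGroup.mk_surjective c
    change (((a : G) * g : G) : G ⧸ H) = (g : G ⧸ H) at hac
    rw [QuotientGroup.eq] at hac
    have hag : g⁻¹ * (a : G) * g ∈ H := by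
      have := H.inv_mem hac
      simpa [mul_assoc] using this
    obtain ⟨i, hi⟩ := IsPGroup.iff_orderOf.mp P.2 a
    set b : H := ⟨_, hag⟩
    have hb : orderOf b = p ^ i := by
      rw [← hi, ← Subgroup.orderOf_coe, ← Subgroup.orderOf_coe a]
      change orderOf (g⁻¹ * (a : G) * g) = _
      rw [show orderOf (g⁻¹ * (a : G) * g) = orderOf (a : G) from by
        have := orderOf_injective (MulAut.conj g⁻¹).toMonoidHom (MulEquiv.injective _) (a : G)
        simpa [MulAut.conj_apply] using this]
    obtain ⟨R, hR⟩ := (IsPGroup.of_card (p := p) (n := i) (G := Subgroup.zpowers b)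
      (by rw [Nat.card_zpowers, hb])).exists_le_sylow
    obtain ⟨h, hh⟩ := MulAction.exists_smul_eq H R (P.subtype (Subgroup.le_normalizer.trans hH))
    have hmem : (h : G) * (g⁻¹ * a * g) * (h : G)⁻¹ ∈ (P : Subgroup G) := by
      have h5 : h * b * h⁻¹ ∈ ((h • R : Sylow p H) : Subgroup H) :=
        Subgroup.smul_mem_pointwise_smul _ _ _ (hR (Subgroup.mem_zpowers b))
      rw [hh] at h5
      exact h5
    by_contra ha1
    have hkN : g * (h : G)⁻¹ ∈ Subgroup.normalizer ((P : Subgroup G) : Set G) := by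
      by_contra hkN
      have h6 := hTI _ hkN
      rw [eq_bot_iff] at h6
      refine ha1 (Subtype.ext (Subgroup.mem_bot.mp (h6 ⟨a.2, ?_⟩)))
      change (a : G) ∈ MulAut.conj (g * (h : G)⁻¹) • (P : Subgroup G)
      rw [Subgroup.mem_pointwise_smul_iff_inv_smul_mem, MulAut.smul_def, MulAut.conj_inv_apply]
      convert hmem using 1
      group
    apply hc
    change (g : G ⧸ H) = ((1 : G) : G ⧸ H)
    rw [QuotientGroup.eq, mul_one]
    have := H.mul_mem (hH hkN) h.2
    rw [inv_mul_cancel_right] at this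
    exact H.inv_mem this
  -- orbit representatives
  let r := MulAction.orbitRel (P : Subgroup G) (G ⧸ H)
  haveI : Fintype (Quotient r) := Fintype.ofFinite _
  set Ω := Finset.univ.filter (fun ω : Quotient r => ω ≠ ⟦o⟧)
  have hout : ∀ ω ∈ Ω, ω.out ≠ o := fun ω hω e =>
    (Finset.mem_filter.mp hω).2 (by rw [← Quotient.out_eq ω, e])
  have hsum' : ∑ c ∈ Finset.univ.erase o, F c =
      ∑ x ∈ Ω ×ˢ (Finset.univ : Finset (P : Subgroup G)), F (x.2 • x.1.out) := by
    symm
    refine Finset.sum_bij (fun x _ => x.2 • x.1.out) ?_ ?_ ?_ (fun _ _ => rfl)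
    · intro x hx
      refine Finset.mem_erase.mpr ⟨fun e => hout _ (Finset.mem_product.mp hx).1 ?_, Finset.mem_univ _⟩
      rw [← hfix x.2⁻¹, ← e, inv_smul_smul]
    · intro x hx y hy e
      have hω : x.1 = y.1 := by
        rw [← Quotient.out_eq x.1, ← Quotient.out_eq y.1]
        refine Quotient.sound ⟨x.2⁻¹ * y.2, ?_⟩
        simp only [mul_smul, ← e, inv_smul_smul]
      rw [← hω] at e
      have h7 := hfree (x.2⁻¹ * y.2) x.1.out (hout _ (Finset.mem_product.mp hx).1)
        (by rw [mul_smul, ← e, inv_smul_smul])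
      exact Prod.ext hω (inv_mul_eq_one.mp h7)
    · intro c hc
      obtain ⟨a, ha⟩ : c ∈ MulAction.orbit (P : Subgroup G) (Quotient.out (⟦c⟧ : Quotient r)) := by
        have : r c (Quotient.out (⟦c⟧ : Quotient r)) := r.symm (Quotient.mk_out c)
        exact this
      refine ⟨(⟦c⟧, a), Finset.mem_product.mpr ⟨Finset.mem_filter.mpr ⟨Finset.mem_univ _,
        fun e => ?_⟩, Finset.mem_univ _⟩, ha⟩
      obtain ⟨a', ha'⟩ := Quotient.exact e
      exact (Finset.mem_erase.mp hc).1 (ha'.symm.trans (hfix a'))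
  set D := Ω.image (fun ω => ω.out.out)
  set coef : G → ℂ := fun g => -((Ω.filter (fun ω => ω.out.out = g)).card : ℂ)
  refine hw (trace_eq_zero V hV (P : Subgroup G) P.2 (hn ▸ hdeg) ρ v coef (fun g => ?_) ?_)
  · simp only [coef, Valuation.map_neg]
    exact (V.valuation_le_one_iff _).mpr (natCast_mem V _)
  · have hu : ∑ g, coef g • ρ g v = -∑ ω ∈ Ω, F ω.out := by
      rw [← Finset.sum_fiberwise_of_maps_to (s := Ω) (t := Finset.univ)
        (g := fun ω => ω.out.out) (fun _ _ => Finset.mem_univ _), ← Finset.sum_neg_distrib]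
      refine Finset.sum_congr rfl fun g _ => ?_
      rw [Finset.sum_congr rfl fun ω hω => show F ω.out = ρ g v by
        simp only [F, (Finset.mem_filter.mp hω).2], Finset.sum_const, ← Nat.cast_smul_eq_nsmul ℂ]
      simp only [coef, neg_smul]
    have hact : ∀ (q : (P : Subgroup G)) (c : G ⧸ H), ρ (q : G) (F c) = F (q • c) := by
      intro q c
      obtain ⟨g, rfl⟩ := QuotientGroup.mk_surjective c
      change ρ (q : G) (F (g : G ⧸ H)) = F (((q : G) * g : G) : G ⧸ H)
      rw [hFmk, hFmk, map_mul]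
      rfl
    rw [hu]
    simp only [map_neg, map_sum, Finset.sum_neg_distrib, hact]
    rw [Finset.sum_comm, eq_neg_iff_add_eq_zero]
    refine Eq.trans ?_ hsum
    rw [← Finset.add_sum_erase _ _ (Finset.mem_univ o), hsum', Finset.sum_product,
      show F o = v by rw [show o = ((1 : G) : G ⧸ H) from rfl, hFmk, map_one]; rfl]

open Classical in
/-- Norms of small characters restrict. -/
theorem classInner_eq_res (P : Sylow p G)
    (hTI : ∀ g : G, g ∉ Subgroup.normalizer ((P : Subgroup G) : Set G) →
      (P : Subgroup G) ⊓ (MulAut.conj g • (P : Subgroup G)) = ⊥)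
    (χ : G → ℂ) (hχ : IsCharacter G χ) (hdeg : charDegree χ ^ 2 ≤ Nat.card (P : Subgroup G))
    (H : Subgroup G) [Fintype H] (hH : Subgroup.normalizer ((P : Subgroup G) : Set G) ≤ H) :
    classInner χ χ = classInner (fun h : H => χ h) (fun h : H => χ h) := by
  classical
  set ψ : G → ℂ := fun g => χ g * conj (χ g)
  have hψ : IsCharacter G ψ := by
    obtain ⟨n, ρ, rfl⟩ := hχ
    refine IsCharacter.mul ⟨n, ρ, rfl⟩ ?_
    rw [show (fun g => conj (ρ.character g)) = fun g => ρ.character g⁻¹ from funext fun g =>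
      (IsCharacter.map_inv ⟨n, ρ, rfl⟩ g).symm]
    simp_rw [← Representation.char_dual ρ]
    exact isCharacter_character _
  have hχ1 : χ 1 = (charDegree χ : ℂ) := by
    obtain ⟨n, ρ, rfl⟩ := hχ
    simp [charDegree, Representation.char_one]
  choose m hm using fun η : IrrCharacter G => exists_mult hψ η
  have hexp : ∀ g, ψ g = ∑ η : IrrCharacter G, (m η : ℂ) * (η : G → ℂ) g := fun g => by
    rw [classFunction_expand (IsCharacter.isClassFunction hψ) g]
    simp only [hm]
  have htot : charDegree χ * charDegree χ = ∑ η : IrrCharacter G, m η * charDegree (η : G → ℂ) := by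
    have h1 := hexp 1
    simp only [ψ, hχ1, Complex.conj_natCast, irr_apply_one] at h1
    exact_mod_cast h1
  have hsmall : ∀ η : IrrCharacter G, η ≠ trivIrr G → m η ≠ 0 →
      charDegree (η : G → ℂ) < Nat.card (P : Subgroup G) := by
    intro η hη hm0
    have hle : m (trivIrr G) * charDegree (trivIrr G : G → ℂ) + m η * charDegree (η : G → ℂ) ≤
        charDegree χ * charDegree χ := by
      rw [htot, ← Finset.sum_pair (f := fun η => m η * charDegree (η : G → ℂ)) hη.symm]
      exact Finset.sum_le_sum_of_subset (Finset.subset_univ _)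
    have hd : charDegree (η : G → ℂ) ≤ m η * charDegree (η : G → ℂ) :=
      Nat.le_mul_of_pos_left _ (Nat.pos_of_ne_zero hm0)
    have ht : charDegree (trivIrr G : G → ℂ) = 1 := by simp [charDegree, trivIrr]
    have hpos : m (trivIrr G) ≠ 0 := by
      intro h0
      have h1 := hm (trivIrr G)
      rw [h0, Nat.cast_zero, classInner] at h1
      simp only [trivIrr, map_one, mul_one, ψ, Complex.mul_conj] at h1
      rw [← Complex.ofReal_sum, mul_eq_zero, Complex.ofReal_eq_zero,
        Finset.sum_eq_zero_iff_of_nonneg fun _ _ => Complex.normSq_nonneg _] at h1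
      have h2 := h1.resolve_left (inv_ne_zero (natCast_card_ne_zero G)) 1 (Finset.mem_univ _)
      rw [Complex.normSq_eq_zero, hχ1, Nat.cast_eq_zero] at h2
      rw [h2, mul_zero] at hle
      have h3 := charDegree_pos η
      omega
    rw [ht] at hle
    nlinarith [Nat.pos_of_ne_zero hpos]
  have eH : classInner (fun h : H => χ h) (fun h : H => χ h) =
      ∑ η : IrrCharacter G, (m η : ℂ) * classInner (fun h : H => (η : G → ℂ) h) (fun _ => 1) := by
    rw [← classInner_sum]
    simp only [classInner, map_one, mul_one, ← hexp]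
    rfl
  rw [eH, Finset.sum_eq_single (trivIrr G)]
  · rw [← hm (trivIrr G)]
    simp only [classInner, trivIrr, map_one, mul_one, ψ, Finset.sum_const, Finset.card_univ,
      nsmul_eq_mul, ← Nat.card_eq_fintype_card, inv_mul_cancel₀ (natCast_card_ne_zero H)]
  · intro η _ hη
    by_cases h0 : m η = 0
    · simp [h0]
    · rw [classInner_res_eq_zero P hTI H hH η hη (hsmall η hη h0), mul_zero]
  · simp

end CfsgLib.Blocks.TIFix
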